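import Cfsg.Agent.G2Spec.Hom
import Cfsg.Agent.Linear.Transvection

/-!
# The special linear group inside the automorphisms of the octonions
-/

set_option autoImplicit false

namespace Cfsg.Agent.G2Spec

open Cfsg.Lie Cfsg.Agent.Chev.Classical Matrix

variable {R : Type*} [CommRing R]

/-- A scalar, two vectors and a scalar. -/
def vec8 (a : R) (u v : Fin 3 → R) (b : R) : Fin 8 → R :=
  ![a, u 0, u 1, u 2, v 0, v 1, v 2, b]

/-- The action of a matrix of determinant one. -/
def blkM (A : Matrix (Fin 3) (Fin 3) R) : Matrix (Fin 8) (Fin 8) R :=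
  !![1, 0, 0, 0, 0, 0, 0, 0;
     0, A 0 0, A 0 1, A 0 2, 0, 0, 0, 0;
     0, A 1 0, A 1 1, A 1 2, 0, 0, 0, 0;
     0, A 2 0, A 2 1, A 2 2, 0, 0, 0, 0;
     0, 0, 0, 0, A.adjugate 0 0, A.adjugate 1 0, A.adjugate 2 0, 0;
     0, 0, 0, 0, A.adjugate 0 1, A.adjugate 1 1, A.adjugate 2 1, 0;
     0, 0, 0, 0, A.adjugate 0 2, A.adjugate 1 2, A.adjugate 2 2, 0;
     0, 0, 0, 0, 0, 0, 0, 1]

theorem blkM_mulVec (A : Matrix (Fin 3) (Fin 3) R) (x : Fin 8 → R) :
    blkM A *ᵥ x = vec8 (x 0) (A *ᵥ zA R x) (A.adjugateᵀ *ᵥ zB R x) (x 7) := by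
  funext i
  fin_cases i <;>
    simp [blkM, vec8, Matrix.mulVec, dotProduct, Fin.sum_univ_eight, Fin.sum_univ_three, zA, zB]

theorem zA_vec8 (a : R) (u v : Fin 3 → R) (b : R) : zA R (vec8 a u v b) = u := by
  funext i; fin_cases i <;> rfl

theorem zB_vec8 (a : R) (u v : Fin 3 → R) (b : R) : zB R (vec8 a u v b) = v := by
  funext i; fin_cases i <;> rfl

theorem blkM_one : blkM (1 : Matrix (Fin 3) (Fin 3) R) = 1 := by
  ext i j
  fin_cases i <;> fin_cases j <;> simp [blkM, adjugate_one]

theorem blkM_mul (A B : Matrix (Fin 3) (Fin 3) R) : blkM (A * B) = blkM A * blkM B := by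
  refine Matrix.ext_of_mulVec_single fun j => ?_
  rw [← Matrix.mulVec_mulVec, blkM_mulVec, blkM_mulVec, blkM_mulVec, zA_vec8, zB_vec8,
    Matrix.mulVec_mulVec, Matrix.mulVec_mulVec, ← Matrix.transpose_mul, Matrix.adjugate_mul_distrib]
  rfl

theorem blkM_endo {A : Matrix (Fin 3) (Fin 3) R} (h : A.det = 1) : IsEndo (blkM A) := by
  intro x y
  rw [det_fin_three] at h
  rw [blkM_mulVec, blkM_mulVec, blkM_mulVec]
  funext k
  fin_cases k <;>
    simp [zornMul, vec8, zA, zB, dot3, cross3, Matrix.mulVec, dotProduct, Fin.sum_univ_three,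
      adjugate_fin_three] <;>
    grobner

theorem blkM_map {S : Type*} [CommRing S] (f : R →+* S) (A : Matrix (Fin 3) (Fin 3) R) :
    (blkM A).map f = blkM (A.map f) := by
  have h := RingHom.map_adjugate f A
  simp only [RingHom.mapMatrix_apply] at h
  ext i j
  fin_cases i <;> fin_cases j <;> simp [blkM, ← h, Matrix.map_apply]

/-- As units. -/
def blkHom : SpecialLinearGroup (Fin 3) R →* GL (Fin 8) R :=
  MonoidHom.toHomUnits
    { toFun := fun A => blkM A.1
      map_one' := blkM_one
      map_mul' := fun A B => blkM_mul A.1 B.1 }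

theorem val_blkHom (A : SpecialLinearGroup (Fin 3) R) :
    (blkHom A : Matrix (Fin 8) (Fin 8) R) = blkM A.1 := rfl

theorem blkHom_injective : Function.Injective (blkHom : SpecialLinearGroup (Fin 3) R → GL (Fin 8) R) := by
  intro A B h
  have e := congrArg (fun g : GL (Fin 8) R => (g : Matrix (Fin 8) (Fin 8) R)) h
  simp only [val_blkHom] at e
  refine Subtype.ext (Matrix.ext fun i j => ?_)
  have e' : ∀ a b : Fin 3, blkM A.1 (a.succ.castLE (by norm_num)) (b.succ.castLE (by norm_num)) =
      blkM B.1 (a.succ.castLE (by norm_num)) (b.succ.castLE (by norm_num)) := fun a b => by rw [e]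
  have := e' i j
  fin_cases i <;> fin_cases j <;> simpa [blkM] using this

variable {F : Type*} [Field F]

theorem blkM_transvection {i j : Fin 3} (h : i ≠ j) (c : F) :
    ∃ r < 12, ∃ t : F, rM r t = blkM (SpecialLinearGroup.transvection h c).1 := by
  have key : ∀ (r : ℕ) (ε : ℤ), r < 12 →
      rM r ((ε : F) * c) = blkM (SpecialLinearGroup.transvection h c).1 →
      ∃ r < 12, ∃ t : F, rM r t = blkM (SpecialLinearGroup.transvection h c).1 :=
    fun r ε hr e => ⟨r, hr, _, e⟩
  have tac : ∀ A : Matrix (Fin 3) (Fin 3) F, ∀ r : ℕ, ∀ t : F,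
      (∀ a b, rM r t a b = blkM A a b) → rM r t = blkM A := fun A r t e => Matrix.ext e
  fin_cases i <;> fin_cases j <;> first
    | exact absurd rfl h
    | skip
  · refine key 5 (-1) (by norm_num) (tac _ _ _ fun a b => ?_)
    fin_cases a <;> fin_cases b <;> simp [rM, rootMat, repO, blkM, Mono.val, adjugate_fin_three,
      SpecialLinearGroup.transvection, Matrix.transvection, Matrix.single_apply]
  · refine key 10 (-1) (by norm_num) (tac _ _ _ fun a b => ?_)
    fin_cases a <;> fin_cases b <;> simp [rM, rootMat, repO, blkM, Mono.val, adjugate_fin_three,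
      SpecialLinearGroup.transvection, Matrix.transvection, Matrix.single_apply]
  · refine key 6 (-1) (by norm_num) (tac _ _ _ fun a b => ?_)
    fin_cases a <;> fin_cases b <;> simp [rM, rootMat, repO, blkM, Mono.val, adjugate_fin_three,
      SpecialLinearGroup.transvection, Matrix.transvection, Matrix.single_apply]
  · refine key 11 1 (by norm_num) (tac _ _ _ fun a b => ?_)
    fin_cases a <;> fin_cases b <;> simp [rM, rootMat, repO, blkM, Mono.val, adjugate_fin_three,
      SpecialLinearGroup.transvection, Matrix.transvection, Matrix.single_apply]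
  · refine key 1 (-1) (by norm_num) (tac _ _ _ fun a b => ?_)
    fin_cases a <;> fin_cases b <;> simp [rM, rootMat, repO, blkM, Mono.val, adjugate_fin_three,
      SpecialLinearGroup.transvection, Matrix.transvection, Matrix.single_apply]
  · refine key 0 1 (by norm_num) (tac _ _ _ fun a b => ?_)
    fin_cases a <;> fin_cases b <;> simp [rM, rootMat, repO, blkM, Mono.val, adjugate_fin_three,
      SpecialLinearGroup.transvection, Matrix.transvection, Matrix.single_apply]

/-- The image of the special linear group lies in any subgroup containing the root elements. -/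
theorem blkHom_mem {H : Subgroup (GL (Fin 8) F)}
    (hH : ∀ r < 12, ∀ t : F, ∃ g ∈ H, (g : Matrix (Fin 8) (Fin 8) F) = rM r t)
    (A : SpecialLinearGroup (Fin 3) F) : blkHom A ∈ H := by
  refine Linear.transvection_induction (fun A => blkHom A ∈ H) (fun i j h c => ?_)
    (fun A B hA hB => by rw [map_mul]; exact mul_mem hA hB) A
  obtain ⟨r, hr, t, e⟩ := blkM_transvection h c
  obtain ⟨g, hg, hg'⟩ := hH r hr t
  rwa [show blkHom (SpecialLinearGroup.transvection h c) = g from Units.ext (e.symm.trans hg'.symm)]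

end Cfsg.Agent.G2Spec
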