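import Mathlib

/-!
# Eigenvalue systems stable under a power map
-/

set_option autoImplicit false

namespace Cfsg.Agent.G2Spec

variable {K : Type*} [Field K]

/-- The eight eigenvalues. -/
def vals (d : Fin 3 → K) : Multiset K :=
  ↑[1, d 0, d 1, d 2, (d 0)⁻¹, (d 1)⁻¹, (d 2)⁻¹, 1]

/-- All hypotheses on a triple of eigenvalues. -/
structure Stable (q : ℕ) (d : Fin 3 → K) : Prop where
  odd : Odd q
  inj : ∀ x y : K, x ^ q = y ^ q → x = y
  prod : d 0 * d 1 * d 2 = 1
  map : (vals d).map (· ^ q) = vals d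

namespace Stable

variable {q : ℕ} {d : Fin 3 → K}

theorem ne_zero (S : Stable q d) (i : Fin 3) : d i ≠ 0 := fun h => by
  have := S.prod
  fin_cases i <;> simp_all

theorem mem (S : Stable q d) (i : Fin 3) :
    d i ^ q = 1 ∨ ∃ j, d i ^ q = d j ∨ d i ^ q = (d j)⁻¹ := by
  have hi : d i ∈ vals d := by fin_cases i <;> simp [vals]
  have h := Multiset.mem_map_of_mem (· ^ q) hi
  rw [S.map] at h
  simp [vals] at h
  rcases h with h | h | h | h | h | h | h | h
  all_goals first
    | exact Or.inl h
    | exact Or.inr ⟨_, Or.inl h⟩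
    | exact Or.inr ⟨_, Or.inr h⟩

theorem count_pow [DecidableEq K] (S : Stable q d) (x : K) :
    (vals d).count (x ^ q) = (vals d).count x := by
  conv_lhs => rw [← S.map]
  exact Multiset.count_map_eq_count' _ _ (fun a b => S.inj a b) _

theorem pow_inv_or (S : Stable q d) {x : K} (hx : x ≠ 0) (h : x ^ q = x ∨ x ^ q = x⁻¹) :
    x ^ (q - 1) = 1 ∨ x ^ (q + 1) = 1 := by
  obtain ⟨k, hk⟩ := S.odd
  rcases h with h | h
  · refine Or.inl (mul_right_cancel₀ hx ?_)
    rw [← pow_succ, show q - 1 + 1 = q by omega, h, one_mul]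
  · refine Or.inr ?_
    rw [pow_succ, h, inv_mul_cancel₀ hx]

theorem case_one (S : Stable q d) (h0 : d 0 = 1) (h1 : d 1 ≠ 1) :
    (∀ i, d i ^ (q - 1) = 1) ∨ ∀ i, d i ^ (q + 1) = 1 := by
  have h2 : d 2 = (d 1)⁻¹ := eq_inv_of_mul_eq_one_right (by rw [← S.prod, h0, one_mul])
  have hq : d 1 ^ q = d 1 ∨ d 1 ^ q = (d 1)⁻¹ := by
    rcases S.mem 1 with h | ⟨j, hj⟩
    · exact absurd (S.inj _ _ (h.trans (one_pow q).symm)) h1
    · fin_cases j
      · simp only [Fin.zero_eta, h0, inv_one, or_self] at hj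
        exact absurd (S.inj _ _ (hj.trans (one_pow q).symm)) h1
      · exact hj
      · simp only [Fin.reduceFinMk, h2, inv_inv] at hj
        exact hj.symm
  refine (S.pow_inv_or (S.ne_zero 1) hq).imp (fun h i => ?_) (fun h i => ?_) <;>
    fin_cases i <;> simp [h0, h2, inv_pow, h]

theorem case_pair (S : Stable q d) (h : d 1 = d 0) (h0 : d 0 ≠ 1) (h2 : d 2 ≠ 1) :
    (∀ i, d i ^ (q - 1) = 1) ∨ ∀ i, d i ^ (q + 1) = 1 := by
  classical
  have hc : d 2 = ((d 0)⁻¹) ^ 2 := by
    have := S.prod
    rw [h] at this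
    rw [inv_pow, sq]
    exact eq_inv_of_mul_eq_one_right this
  have hq : d 0 ^ q = d 0 ∨ d 0 ^ q = (d 0)⁻¹ := by
    by_contra hne
    rw [not_or] at hne
    have hx1 : d 0 ^ q ≠ 1 := fun e => h0 (S.inj _ _ (e.trans (one_pow q).symm))
    have h2c : 2 ≤ (vals d).count (d 0 ^ q) := by
      rw [S.count_pow]
      simp only [vals, Multiset.coe_count, List.count_cons, List.count_nil, h, beq_self_eq_true,
        if_true]
      omega
    simp [vals, List.count_cons, h, Ne.symm hne.1, Ne.symm hne.2, Ne.symm hx1] at h2c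
    have e1 : d 2 = d 0 ^ q := by
      by_contra e
      simp [e] at h2c
      split_ifs at h2c <;> omega
    have e2 : (d 2)⁻¹ = d 0 ^ q := by
      by_contra e
      simp [e] at h2c
      split_ifs at h2c <;> omega
    have hs : d 2 ^ 2 = 1 := by
      have := S.ne_zero 2
      rw [sq]
      conv_lhs => arg 1; rw [e1, ← e2]
      exact inv_mul_cancel₀ this
    rcases sq_eq_one_iff.1 hs with e | e
    · exact h2 e
    · have h0' : d 0 = -1 := S.inj _ _ (by rw [← e1, e, S.odd.neg_one_pow])
      exact h2 (by rw [hc, h0']; norm_num)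
  have fin : ∀ n, d 0 ^ n = 1 → ∀ i, d i ^ n = 1 := by
    intro n e
    rw [Fin.forall_fin_succ, Fin.forall_fin_two]
    exact ⟨e, by rw [Fin.succ_zero_eq_one, h, e],
      by rw [Fin.succ_one_eq_two, hc, ← pow_mul, mul_comm 2, pow_mul, inv_pow, e, inv_one, one_pow]⟩
  exact (S.pow_inv_or (S.ne_zero 0) hq).imp (fin _) (fin _)

theorem case_distinct (S : Stable q d) (h1 : ∀ i, d i ≠ 1) (hne : ∀ i j, i ≠ j → d i ≠ d j) :
    (∀ i, d i ^ (q ^ 2 - 1) = 1) ∨ (∀ i, d i ^ (q ^ 2 + q + 1) = 1) ∨
      ∀ i, d i ^ (q ^ 2 - q + 1) = 1 := by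
  obtain ⟨k, hk⟩ := S.odd
  have hne' : ∀ i j, i ≠ j → d i * d j ≠ 1 := by
    intro i j hij e
    have h3 := S.prod
    have key : ∀ a b c : K, a * b * c = 1 → a * b = 1 → c = 1 := fun a b c x y => by
      rw [y, one_mul] at x; exact x
    fin_cases i <;> fin_cases j <;>
      (try simp only [Fin.zero_eta, Fin.mk_one, Fin.reduceFinMk] at hij e) <;> first
      | exact absurd rfl hij
      | exact h1 2 (key (d 0) (d 1) _ (by linear_combination h3) (by linear_combination e))
      | exact h1 1 (key (d 0) (d 2) _ (by linear_combination h3) (by linear_combination e))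
      | exact h1 0 (key (d 1) (d 2) _ (by linear_combination h3) (by linear_combination e))
  by_cases hm : ∃ i, d i ^ 2 = 1
  · obtain ⟨i, hi⟩ := hm
    have hi' : d i = -1 := (sq_eq_one_iff.1 hi).resolve_left (h1 i)
    refine Or.inl fun j => ?_
    have hev : Even (q ^ 2 - 1) := by
      obtain ⟨c, hc⟩ : ∃ c, q ^ 2 = 2 * c + 1 := ⟨2 * k * k + 2 * k, by rw [hk]; ring⟩
      exact ⟨c, by omega⟩
    by_cases hji : j = i
    · rw [hji, hi', hev.neg_one_pow]
    have hprod : ∀ l, l ≠ i → l ≠ j → d l = (d i)⁻¹ * (d j)⁻¹ := by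
      intro l hli hlj
      rw [← mul_inv]
      refine eq_inv_of_mul_eq_one_left ?_
      have := S.prod
      fin_cases i <;> fin_cases j <;> fin_cases l <;>
        (try simp only [Fin.zero_eta, Fin.mk_one, Fin.reduceFinMk] at hji hli hlj ⊢) <;> first
        | exact absurd rfl hli
        | exact absurd rfl hlj
        | exact absurd rfl hji
        | exact absurd trivial hji
        | linear_combination this
    have hsq : (d j ^ q) ^ 2 = d j ^ 2 ∨ (d j ^ q) ^ 2 = ((d j)⁻¹) ^ 2 := by
      rcases S.mem j with h | ⟨l, hl⟩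
      · exact absurd (S.inj _ _ (h.trans (one_pow q).symm)) (h1 j)
      · by_cases hli : l = i
        · subst hli
          have : d j ^ q = d l := by
            rcases hl with h | h
            · exact h
            · rw [h, hi']; norm_num
          exact absurd (S.inj _ _ (by rw [this, hi', S.odd.neg_one_pow])) (hne j l hji)
        · by_cases hlj : l = j
          · subst hlj
            exact hl.imp (congrArg (· ^ 2)) (congrArg (· ^ 2))
          · rw [hprod l hli hlj, mul_inv, inv_inv, inv_inv] at hl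
            rcases hl with h | h <;> rw [h, mul_pow, hi']
            · right; norm_num
            · left; norm_num
    rw [← pow_mul, show q ^ 2 - 1 = (q + 1) * (q - 1) by
      rw [← Nat.sq_sub_sq, one_pow]] at *
    rcases hsq with h | h
    · have e : d j ^ (2 * (q - 1)) = 1 := by
        refine mul_right_cancel₀ (pow_ne_zero 2 (S.ne_zero j)) ?_
        rw [one_mul, ← pow_add, show 2 * (q - 1) + 2 = q * 2 by omega, h]
      obtain ⟨t, ht⟩ : ∃ t, q + 1 = 2 * t := ⟨k + 1, by omega⟩
      rw [ht, show 2 * t * (q - 1) = 2 * (q - 1) * t by ring, pow_mul, e, one_pow]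
    · have e : d j ^ (2 * (q + 1)) = 1 := by
        rw [show 2 * (q + 1) = q * 2 + 2 by ring, pow_add, h, inv_pow,
          inv_mul_cancel₀ (pow_ne_zero 2 (S.ne_zero j))]
      obtain ⟨t, ht⟩ : ∃ t, q - 1 = 2 * t := ⟨k, by omega⟩
      rw [ht, show (q + 1) * (2 * t) = 2 * (q + 1) * t by ring, pow_mul, e, one_pow]
  push Not at hm
  have hch : ∀ i, ∃ (j : Fin 3) (s : Bool), d i ^ q = if s then d j else (d j)⁻¹ := by
    intro i
    rcases S.mem i with h | ⟨j, h | h⟩
    · exact absurd (S.inj _ _ (h.trans (one_pow q).symm)) (h1 i)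
    · exact ⟨j, true, h⟩
    · exact ⟨j, false, h⟩
  choose j s hjs using hch
  have hinj : Function.Injective j := by
    intro a b hab
    by_contra hne2
    have ha := hjs a
    have hb := hjs b
    rw [hab] at ha
    by_cases hs : s a = s b
    · rw [hs] at ha; exact hne a b hne2 (S.inj _ _ (ha.trans hb.symm))
    · refine hne' a b hne2 (S.inj _ _ ?_)
      rw [mul_pow, one_pow, ha, hb]
      have := S.ne_zero (j b)
      cases hsa : s a <;> cases hsb : s b <;> simp_all
  have hperm : (∀ i, j (j i) = i) ∨ (∀ i, j i = i + 1) ∨ (∀ i, j i = i + 2) := by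
    revert hinj
    generalize j = f
    revert f
    unfold Function.Injective
    decide
  have hall : ∃ t : Bool, ∀ i, s i = t := by
    have hp : d 0 ^ q * d 1 ^ q * d 2 ^ q = 1 := by rw [← mul_pow, ← mul_pow, S.prod, one_pow]
    rw [hjs 0, hjs 1, hjs 2] at hp
    have h3 : d (j 0) * d (j 1) * d (j 2) = 1 := by
      have e : ∏ i, d (j i) = ∏ i, d i :=
        Fintype.prod_bijective j (Finite.injective_iff_bijective.1 hinj) _ _ fun _ => rfl
      rwa [Fin.prod_univ_three, Fin.prod_univ_three, S.prod] at e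
    have z0 := S.ne_zero (j 0)
    have z1 := S.ne_zero (j 1)
    have z2 := S.ne_zero (j 2)
    refine ⟨s 0, ?_⟩
    rw [Fin.forall_fin_succ, Fin.forall_fin_two]
    refine ⟨rfl, ?_⟩
    rcases Bool.eq_false_or_eq_true (s 0) with a | a <;>
      rcases Bool.eq_false_or_eq_true (s 1) with b | b <;>
        rcases Bool.eq_false_or_eq_true (s 2) with c | c <;>
          simp only [Fin.succ_zero_eq_one, Fin.succ_one_eq_two, a, b, c] at hp ⊢ <;>
          simp only [and_self, if_true, Bool.false_eq_true, if_false, and_false, false_and] at hp ⊢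
    all_goals exfalso
    all_goals first
      | exact hm (j 2) (by field_simp at hp; grobner)
      | exact hm (j 1) (by field_simp at hp; grobner)
      | exact hm (j 0) (by field_simp at hp; grobner)
  obtain ⟨t, ht⟩ := hall
  have hφ : ∀ i, d i ^ q = if t then d (j i) else (d (j i))⁻¹ := fun i => by rw [← ht i]; exact hjs i
  have hφ2 : ∀ i, d i ^ q ^ 2 = d (j (j i)) := by
    intro i
    rw [sq, pow_mul, hφ]
    cases t <;> simp [hφ, inv_pow]
  rcases hperm with hp | hp
  · refine Or.inl fun i => mul_right_cancel₀ (S.ne_zero i) ?_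
    rw [← pow_succ, show q ^ 2 - 1 + 1 = q ^ 2 by
      have : 0 < q ^ 2 := Nat.pow_pos (show 0 < q by omega)
      omega, hφ2, hp, one_mul]
  refine Or.inr ?_
  have hcyc : ∀ i, d i * d (j i) * d (j (j i)) = 1 := by
    intro i
    have := S.prod
    rcases hp with hp | hp <;> fin_cases i <;> simp [hp] <;> linear_combination this
  cases t
  · refine Or.inr fun i => ?_
    simp only [Bool.false_eq_true, if_false] at hφ
    refine mul_right_cancel₀ (pow_ne_zero q (S.ne_zero i)) ?_
    rw [one_mul, ← pow_add, show q ^ 2 - q + 1 + q = q ^ 2 + 1 by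
      have : q ≤ q ^ 2 := Nat.le_self_pow (by norm_num) q
      omega, pow_succ, hφ2, hφ]
    refine eq_inv_of_mul_eq_one_left ?_
    linear_combination hcyc i
  · refine Or.inl fun i => ?_
    simp only [if_true] at hφ
    rw [pow_succ, pow_add, hφ2, hφ]
    linear_combination hcyc i

end Stable

end Cfsg.Agent.G2Spec
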