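import Cfsg.Agent.G2Spec.Diag
import Cfsg.Agent.G2Spec.Values
import Cfsg.Agent.G2Oct.Sylow

/-!
# Element orders of `G2 F` divide the six candidates
-/

set_option autoImplicit false

namespace Cfsg.Agent.G2Spec

open Cfsg.Lie Matrix

variable {K : Type*} [Field K]

/-- The diagonal of `blkM (diagonal d)`. -/
def dvec (d : Fin 3 → K) : Fin 8 → K :=
  ![1, d 0, d 1, d 2, (d 0)⁻¹, (d 1)⁻¹, (d 2)⁻¹, 1]

/-- The position of the `a`-part. -/
def posA : Fin 3 → Fin 8 := ![1, 2, 3]

theorem dvec_posA (d : Fin 3 → K) (i : Fin 3) : dvec d (posA i) = d i := by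
  fin_cases i <;> rfl

theorem blkM_posA (A : Matrix (Fin 3) (Fin 3) K) (i j : Fin 3) :
    blkM A (posA i) (posA j) = A i j := by
  fin_cases i <;> fin_cases j <;> rfl

theorem blkM_pow (A : Matrix (Fin 3) (Fin 3) K) : ∀ n : ℕ, blkM A ^ n = blkM (A ^ n)
  | 0 => by rw [pow_zero, pow_zero, blkM_one]
  | n + 1 => by rw [pow_succ, pow_succ, blkM_pow A n, blkM_mul]

theorem blkM_diagonal {d : Fin 3 → K} (hd : d 0 * d 1 * d 2 = 1) :
    blkM (Matrix.diagonal d) = Matrix.diagonal (dvec d) := by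
  have h0 : d 0 ≠ 0 := fun h => by simp [h] at hd
  have h1 : d 1 ≠ 0 := fun h => by simp [h] at hd
  have h2 : d 2 ≠ 0 := fun h => by simp [h] at hd
  ext i j
  fin_cases i <;> fin_cases j <;>
    simp [blkM, dvec, adjugate_fin_three, Matrix.diagonal] <;>
    (field_simp; linear_combination hd)

theorem pow_finrank_of_nil {V : Type*} [AddCommGroup V] [Module K V] [FiniteDimensional K V]
    (f : Module.End K V) {k : ℕ} (h : ∀ v, (f ^ k) v = 0) : f ^ Module.finrank K V = 0 := by
  have e := f.aeval_self_charpoly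
  rw [(LinearMap.charpoly_eq_X_pow_iff f).2 fun v => ⟨k, h v⟩] at e
  simpa using e

theorem mat_pow_card {n : ℕ} {N : Matrix (Fin n) (Fin n) K} {k : ℕ} (h : N ^ k = 0) :
    N ^ n = 0 := by
  have e := pow_finrank_of_nil (Matrix.toLinAlgEquiv' N) (k := k) fun v => by
    rw [← map_pow, h, map_zero, LinearMap.zero_apply]
  rw [Module.finrank_fintype_fun_eq_card, Fintype.card_fin, ← map_pow] at e
  exact (map_eq_zero_iff _ (AlgEquiv.injective _)).1 e

variable {p : ℕ} [Fact p.Prime] [CharP K p]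

theorem pow_eq_one_of_le {n : ℕ} [NeZero n] {A : Matrix (Fin n) (Fin n) K} {e k : ℕ}
    (hA : A ^ p ^ e = 1) (hn : n ≤ p ^ k) : A ^ p ^ k = 1 := by
  have h := sub_pow_char_pow_of_commute (p := p) e (Commute.one_right A)
  rw [hA, one_pow, sub_self] at h
  have h' := sub_pow_char_pow_of_commute (p := p) k (Commute.one_right A)
  rw [pow_eq_zero_of_le hn (mat_pow_card h), one_pow] at h'
  exact sub_eq_zero.1 h'.symm

theorem unip_three (hp : 3 ≤ p) {A : Matrix (Fin 3) (Fin 3) K} {e : ℕ} (hA : A ^ p ^ e = 1) :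
    A ^ p = 1 := by
  simpa using pow_eq_one_of_le (p := p) (k := 1) hA (by simpa using hp)

theorem scalar_unip_two {X : Matrix (Fin 2) (Fin 2) K} {e : ℕ} {c : K}
    (hX : X ^ p ^ e = c ^ p ^ e • 1) : X ^ p = c ^ p • 1 := by
  have hc : Commute X (c • 1) := (Commute.one_right X).smul_right c
  have h := sub_pow_char_pow_of_commute (p := p) e hc
  rw [hX, smul_pow, one_pow, sub_self] at h
  have h' := sub_pow_char_of_commute (p := p) hc
  rw [pow_eq_zero_of_le (Fact.out : p.Prime).two_le (mat_pow_card h), smul_pow, one_pow] at h'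
  exact sub_eq_zero.1 h'.symm

/-- An element of `p`-power order of `G2 K` is killed by `p` if `p ≥ 7`, by `p²` otherwise. -/
theorem unip_bound (hp2 : p ≠ 2) {u : GL (Fin 8) K} (hu : u ∈ G2 K) {e : ℕ}
    (hue : u ^ p ^ e = 1) : u ^ p = 1 ∨ ((p = 3 ∨ p = 5) ∧ u ^ p ^ 2 = 1) := by
  have hP : p.Prime := Fact.out
  have hue' : (u : Matrix (Fin 8) (Fin 8) K) ^ p ^ e = 1 := by
    rw [← Units.val_pow_eq_pow_val, hue, Units.val_one]
  have fin : ∀ k, (u : Matrix (Fin 8) (Fin 8) K) ^ k = 1 → u ^ k = 1 := fun k h =>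
    Units.ext (by rwa [Units.val_pow_eq_pow_val, Units.val_one])
  have h35 : (p = 3 ∨ p = 5) ∨ 7 ≤ p := by
    by_contra h
    have : p = 4 ∨ p = 6 := by have := hP.two_le; omega
    rcases this with rfl | rfl <;> norm_num at hP
  rcases h35 with h | h
  · exact Or.inr ⟨h, fin _ (pow_eq_one_of_le hue' (by rcases h with rfl | rfl <;> norm_num))⟩
  refine Or.inl (fin _ ?_)
  have h2 : (2 : K) ≠ 0 := by
    intro h2
    have hd : p ∣ 2 := (CharP.cast_eq_zero_iff K p 2).1 (by exact_mod_cast h2)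
    exact hp2 ((Nat.prime_dvd_prime_iff_eq hP Nat.prime_two).1 hd)
  have hN := sub_pow_char_pow_of_commute (p := p) e (Commute.one_right (u : Matrix (Fin 8) (Fin 8) K))
  rw [hue', one_pow, sub_self] at hN
  set N := (u : Matrix (Fin 8) (Fin 8) K) - 1 with hNdef
  let tr : (Fin 8 → K) →ₗ[K] K :=
    { toFun := trO, map_add' := trO_add, map_smul' := fun c x => trO_smul c x }
  let f := Matrix.toLinAlgEquiv' N
  have hrank : Module.finrank K (LinearMap.ker tr) = 7 := by
    have := LinearMap.finrank_range_add_finrank_ker tr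
    rw [LinearMap.range_eq_top.2 fun c => ⟨(c / 2) • oneO K, by
        show trO _ = c; rw [trO_smul, trO_one, div_mul_cancel₀ _ h2]⟩,
      finrank_top, Module.finrank_self, Module.finrank_fintype_fun_eq_card, Fintype.card_fin] at this
    omega
  have hinv : ∀ x ∈ LinearMap.ker tr, f x ∈ LinearMap.ker tr := fun x hx => by
    rw [LinearMap.mem_ker] at hx ⊢
    show trO (N *ᵥ x) = 0
    rw [hNdef, Matrix.sub_mulVec, Matrix.one_mulVec, sub_eq_add_neg, trO_add,
      endo_trO (mem_endo hu) u.isUnit, ← neg_one_smul K x, trO_smul, show trO x = 0 from hx]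
    ring
  have h7 := pow_finrank_of_nil (f.restrict hinv) (k := p ^ e) fun v => by
    refine Subtype.ext ?_
    rw [Module.End.pow_restrict, LinearMap.restrict_apply]
    show ((Matrix.toLinAlgEquiv' N) ^ p ^ e) (v : Fin 8 → K) = 0
    rw [← map_pow, hN, map_zero, LinearMap.zero_apply]
  rw [hrank] at h7
  have hN7 : N ^ 7 = 0 := by
    refine Matrix.ext_of_mulVec_single fun j => ?_
    rw [Matrix.zero_mulVec]
    generalize (Pi.single j 1 : Fin 8 → K) = x
    have hw : x - (trO x / 2) • oneO K ∈ LinearMap.ker tr := by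
      show trO _ = 0
      rw [sub_eq_add_neg, trO_add, ← neg_smul, trO_smul, trO_one]
      field_simp
      ring
    have hk := congrArg Subtype.val (LinearMap.congr_fun h7 ⟨_, hw⟩)
    rw [Module.End.pow_restrict, LinearMap.restrict_apply] at hk
    change ((Matrix.toLinAlgEquiv' N) ^ 7) _ = 0 at hk
    rw [← map_pow, Matrix.toLinAlgEquiv'_apply, Matrix.mulVec_sub, Matrix.mulVec_smul, pow_succ,
      ← Matrix.mulVec_mulVec (oneO K)] at hk
    rw [show N *ᵥ oneO K = 0 by
      rw [hNdef, Matrix.sub_mulVec, endo_one (mem_endo hu) u.isUnit, Matrix.one_mulVec, sub_self],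
      Matrix.mulVec_zero, smul_zero, sub_zero, ← pow_succ] at hk
    exact hk
  have h' := sub_pow_char_of_commute (p := p) (Commute.one_right (u : Matrix (Fin 8) (Fin 8) K))
  rw [pow_eq_zero_of_le h hN7, one_pow] at h'
  exact sub_eq_zero.1 h'.symm

/-- The signs of the involution. -/
def sgnD (K : Type*) [Field K] : Fin 8 → K := ![1, 1, -1, -1, 1, -1, -1, 1]

theorem sgnD_mulVec (A B : Matrix (Fin 2) (Fin 2) K) :
    Matrix.diagonal (sgnD K) *ᵥ G2Oct.pack A B = G2Oct.pack A (-B) := by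
  funext i
  rw [Matrix.mulVec_diagonal]
  fin_cases i <;> simp [sgnD, G2Oct.pack]

open G2Oct in
theorem unip_sgn [IsAlgClosed K] (h2 : (2 : K) ≠ 0) {u : GL (Fin 8) K} (hu : u ∈ G2 K) {e : ℕ}
    (hue : u ^ p ^ e = 1)
    (hc : (u : Matrix (Fin 8) (Fin 8) K) * Matrix.diagonal (sgnD K) =
      Matrix.diagonal (sgnD K) * (u : Matrix (Fin 8) (Fin 8) K)) : u ^ p = 1 := by
  have hs : ((sgn : ↥(G2 K)) : GL (Fin 8) K).val = Matrix.diagonal (sgnD K) :=
    Matrix.ext_of_mulVec_single fun j => by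
      rw [← pack_parts (Pi.single j 1 : Fin 8 → K), sgnD_mulVec]
      exact act_sgn _ _
  obtain ⟨w, hw⟩ := centralizer_le h2 ⟨u, hu⟩ (Subtype.ext (Units.ext (by
    simp only [Subgroup.coe_mul, Units.val_mul, hs]; exact hc)))
  have h1 : theta (w ^ p ^ e) = 1 := by
    rw [map_pow, hw]; exact Subtype.ext hue
  have hXY := theta_eq_one h1
  set Z := (((w ^ p ^ e : W K).1.1 : GL (Fin 2) K) : Matrix (Fin 2) (Fin 2) K) with hZ
  have hcomm : ∀ A : Matrix (Fin 2) (Fin 2) K, Z * A = A * Z := by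
    intro A
    have e1 : pack A 0 = act (theta (w ^ p ^ e)) (pack A 0) := by
      rw [h1]; exact (Matrix.one_mulVec _).symm
    rw [act_theta] at e1
    have e2 := (pack_inj e1).1
    conv_rhs => rw [e2]
    rw [hZ, Matrix.mul_assoc, Units.inv_mul, mul_one]
  have hZs : Z = Z 0 0 • 1 := by
    have a := hcomm (Matrix.single 0 1 1)
    have b := hcomm (Matrix.single 1 0 1)
    have a0 := congrFun (congrFun a 0) 1
    have a1 := congrFun (congrFun a 1) 1
    have b1 := congrFun (congrFun b 1) 1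
    simp [Matrix.mul_apply, Fin.sum_univ_two, Matrix.single_apply] at a0 a1 b1
    ext i j
    fin_cases i <;> fin_cases j <;> simp [a0, a1, ← b1]
  obtain ⟨c, hc0⟩ := IsAlgClosed.exists_pow_nat_eq (Z 0 0)
    (pow_pos (Fact.out : p.Prime).pos e)
  have hX : (w.1.1 : Matrix (Fin 2) (Fin 2) K) ^ p ^ e = c ^ p ^ e • 1 := by
    rw [hc0, ← hZs, hZ]; simp
  have hY : (w.1.2 : Matrix (Fin 2) (Fin 2) K) ^ p ^ e = c ^ p ^ e • 1 := by
    rw [hc0, ← hZs, hZ, ← hXY]; simp
  have h1' : theta (w ^ p) = 1 := by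
    have hX' : (((w ^ p : W K).1.1 : GL (Fin 2) K) : Matrix (Fin 2) (Fin 2) K) = c ^ p • 1 := by
      simpa using scalar_unip_two hX
    have hY' : (((w ^ p : W K).1.2 : GL (Fin 2) K) : Matrix (Fin 2) (Fin 2) K) = c ^ p • 1 := by
      simpa using scalar_unip_two hY
    have hc1 : c ^ p ≠ 0 := fun h => by
      have := ((w ^ p : W K).1.1 : GL (Fin 2) K).ne_zero
      rw [hX', h, zero_smul] at this
      exact this rfl
    refine ext_act fun A B => ?_
    rw [theta_scalar hX' hY', div_self hc1, one_smul]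
    exact (Matrix.one_mulVec _).symm
  rw [map_pow, hw] at h1'
  exact congrArg Subtype.val h1'

end Cfsg.Agent.G2Spec
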