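import Cfsg.Agent.G2Spec.Oct
import Cfsg.Agent.G2Spec.Blk

/-!
# Semisimple automorphisms of the octonions are conjugate to diagonal ones
-/

set_option autoImplicit false

namespace Cfsg.Agent.G2Spec

open Cfsg.Lie Matrix Cfsg.Agent.Chev.Classical

variable {K : Type*} [Field K]

/-- The first idempotent. -/
def e0 (K : Type*) [Field K] : Fin 8 → K := Pi.single 0 1

theorem rM_inv (r : ℕ) (hr : r < 12) (t : K) : rM r t * rM r (-t) = 1 := by
  rw [rM, rM, rootMat_add addOK_repO (show r < chevG2.nroots from hr), add_neg_cancel,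
    rootMat_zero addOK_repO (show r < chevG2.nroots from hr)]

/-- The root element as a unit. -/
def rU (r : ℕ) (hr : r < 12) (t : K) : GL (Fin 8) K :=
  ⟨rM r t, rM r (-t), rM_inv r hr t, by have := rM_inv r hr (-t); rwa [neg_neg] at this⟩

theorem rU_mem (r : ℕ) (hr : r < 12) (t : K) : rU r hr t ∈ G2 K :=
  val_mem_G2 (rM_endo r hr t)

theorem mem_endo {g : GL (Fin 8) K} (hg : g ∈ G2 K) : IsEndo (g : Matrix (Fin 8) (Fin 8) K) := hg

theorem blkHom_mem_G2 (A : SpecialLinearGroup (Fin 3) K) : blkHom A ∈ G2 K :=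
  val_mem_G2 (blkM_endo A.2)

theorem exists_sl_vec {v : Fin 3 → K} (hv : v ≠ 0) :
    ∃ A : Matrix (Fin 3) (Fin 3) K, A.det = 1 ∧ A *ᵥ v = ![1, 0, 0] := by
  by_cases h0 : v 0 ≠ 0
  · refine ⟨!![1 / v 0, 0, 0; -v 1, v 0, 0; -(v 2 / v 0), 0, 1], ?_, funext fun i => ?_⟩
    · simp [det_fin_three]; field_simp
    · fin_cases i <;> simp [Matrix.mulVec, dotProduct, Fin.sum_univ_three] <;> field_simp <;> ring
  rw [not_not] at h0
  by_cases h1 : v 1 ≠ 0
  · refine ⟨!![0, 1 / v 1, 0; -v 1, 0, 0; 0, -(v 2 / v 1), 1], ?_, funext fun i => ?_⟩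
    · simp [det_fin_three]; field_simp
    · fin_cases i <;> simp [Matrix.mulVec, dotProduct, Fin.sum_univ_three, h0] <;> field_simp <;> ring
  rw [not_not] at h1
  have h2 : v 2 ≠ 0 := fun h2 => hv (funext fun i => by fin_cases i <;> assumption)
  refine ⟨!![0, 0, 1 / v 2; 1, 0, 0; 0, v 2, 0], ?_, funext fun i => ?_⟩
  · simp [det_fin_three]; field_simp
  · fin_cases i <;> simp [Matrix.mulVec, dotProduct, Fin.sum_univ_three, h0, h1] <;> field_simp

theorem eq_vec8 (x : Fin 8 → K) : x = vec8 (x 0) (zA K x) (zB K x) (x 7) := by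
  funext i; fin_cases i <;> rfl

theorem normalize_right {e : Fin 8 → K} (h0 : e 0 = 1) (h7 : e 7 = 0) (ha : zA K e = 0) :
    ∃ g ∈ G2 K, (g : Matrix (Fin 8) (Fin 8) K) *ᵥ e = e0 K := by
  by_cases hb : zB K e = 0
  · refine ⟨1, one_mem _, ?_⟩
    rw [Units.val_one, Matrix.one_mulVec, eq_vec8 e, h0, h7, ha, hb]
    funext i; fin_cases i <;> simp [vec8, e0, Pi.single_apply]
  obtain ⟨C, hC, hCv⟩ := exists_sl_vec hb
  let A : SpecialLinearGroup (Fin 3) K := ⟨C.adjugateᵀ, by
    rw [Matrix.det_transpose, Matrix.det_adjugate, hC, one_pow]⟩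
  have hA : A.1.adjugateᵀ = C := by
    show (C.adjugateᵀ).adjugateᵀ = C
    rw [Matrix.adjugate_transpose, Matrix.transpose_transpose,
      Matrix.adjugate_adjugate _ (by simp), hC, one_pow, one_smul]
  refine ⟨rU 4 (by norm_num) 1 * blkHom A, mul_mem (rU_mem _ _ _) (blkHom_mem_G2 A), ?_⟩
  rw [Units.val_mul, ← Matrix.mulVec_mulVec, val_blkHom, blkM_mulVec, hA, hCv, ha, h0, h7,
    Matrix.mulVec_zero]
  funext i
  fin_cases i <;> simp [rU, rM, rootMat, repO, vec8, e0, Mono.val, Matrix.add_mulVec,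
    Matrix.mulVec, dotProduct, Fin.sum_univ_eight, Matrix.single_apply, Pi.single_apply]

theorem exists_conj_e0 {e : Fin 8 → K} (ht : trO e = 1) (hn : nO e = 0) :
    ∃ g ∈ G2 K, (g : Matrix (Fin 8) (Fin 8) K) *ᵥ e = e0 K ∨
      (g : Matrix (Fin 8) (Fin 8) K) *ᵥ (oneO K - e) = e0 K := by
  have aux : ∀ f : Fin 8 → K, trO f = 1 → nO f = 0 → zA K f = 0 →
      ∃ g ∈ G2 K, (g : Matrix (Fin 8) (Fin 8) K) *ᵥ f = e0 K ∨
        (g : Matrix (Fin 8) (Fin 8) K) *ᵥ (oneO K - f) = e0 K := by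
    intro f ft fn fa
    have h1 : f 1 = 0 := congrFun fa 0
    have h2 : f 2 = 0 := congrFun fa 1
    have h3 : f 3 = 0 := congrFun fa 2
    simp only [trO] at ft
    simp only [nO, h1, h2, h3, zero_mul, add_zero, sub_zero] at fn
    rcases mul_eq_zero.1 fn with h | h
    · obtain ⟨g, hg, e'⟩ := normalize_right (e := oneO K - f) (by simp [oneO, h])
        (by simp [oneO]; linear_combination h - ft)
        (funext fun i => by
          fin_cases i <;> simp [show oneO K 1 = 0 from rfl, show oneO K 2 = 0 from rfl,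
            show oneO K 3 = 0 from rfl, h1, h2, h3])
      exact ⟨g, hg, Or.inr e'⟩
    · obtain ⟨g, hg, e'⟩ := normalize_right (e := f) (by linear_combination ft - h) h fa
      exact ⟨g, hg, Or.inl e'⟩
  by_cases ha : zA K e = 0
  · exact aux e ht hn ha
  obtain ⟨A, hA, hAv⟩ := exists_sl_vec ha
  let As : SpecialLinearGroup (Fin 3) K := ⟨A, hA⟩
  set f := (blkHom As : Matrix (Fin 8) (Fin 8) K) *ᵥ e with hf
  have hfv : f = vec8 (e 0) ![1, 0, 0] (A.adjugateᵀ *ᵥ zB K e) (e 7) := by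
    rw [hf, val_blkHom, blkM_mulVec, hAv]
  have hone : ∀ g ∈ G2 K, (g : Matrix (Fin 8) (Fin 8) K) *ᵥ oneO K = oneO K :=
    fun g hg => endo_one hg g.isUnit
  have hft : trO f = 1 := (endo_trO (blkM_endo hA) (blkHom As).isUnit e).trans ht
  have hfn : nO f = 0 := by
    have h7 : zornMul f f = f := by
      rw [hf, ← mem_endo (blkHom_mem_G2 As) e e, mul_self_eq, ht, hn, one_smul, zero_smul, sub_zero]
    rw [mul_self_eq, hft, one_smul, sub_eq_self] at h7
    simpa [oneO] using congrFun h7 0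
  suffices h : ∃ t : K, zA K (rM 7 t *ᵥ f) = 0 by
    obtain ⟨t, h⟩ := h
    obtain ⟨U, hU, hUv⟩ : ∃ U ∈ G2 K, (U : Matrix (Fin 8) (Fin 8) K) = rM 7 t :=
      ⟨rU 7 (by norm_num) t, rU_mem _ _ _, rfl⟩
    rw [← hUv] at h
    set v := (U : Matrix (Fin 8) (Fin 8) K) *ᵥ f with hv
    have hvt : trO v = 1 := (endo_trO (mem_endo hU) U.isUnit f).trans hft
    have hvn : nO v = 0 := by
      have e1 : zornMul v v = v := by
        rw [hv, ← mem_endo hU f f, mul_self_eq, hft, hfn, one_smul, zero_smul, sub_zero]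
      rw [mul_self_eq, hvt, one_smul, sub_eq_self] at e1
      simpa [oneO] using congrFun e1 0
    obtain ⟨g, hg, e'⟩ := aux v hvt hvn h
    refine ⟨g * U * blkHom As, mul_mem (mul_mem hg hU) (blkHom_mem_G2 As), ?_⟩
    simp only [Units.val_mul, ← Matrix.mulVec_mulVec]
    rcases e' with e' | e'
    · exact Or.inl e'
    · refine Or.inr ?_
      rw [Matrix.mulVec_sub, hone _ (blkHom_mem_G2 As), Matrix.mulVec_sub, hone _ hU]
      exact e'
  have ht' : f 0 + f 7 = 1 := hft
  have hn' : f 0 * f 7 - (f 1 * f 4 + f 2 * f 5 + f 3 * f 6) = 0 := hfn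
  have h1 : f 1 = 1 := by rw [hfv]; rfl
  have h2 : f 2 = 0 := by rw [hfv]; rfl
  have h3 : f 3 = 0 := by rw [hfv]; rfl
  rw [h1, h2, h3] at hn'
  by_cases hb : f 7 = 0
  · refine ⟨-1, funext fun i => ?_⟩
    fin_cases i <;> simp [zA, rM, rootMat, repO, Mono.val, Matrix.add_mulVec, Matrix.mulVec,
      dotProduct, Fin.sum_univ_eight, Matrix.single_apply, h1, h2, h3, hb]
    grobner
  · refine ⟨1 / f 7, funext fun i => ?_⟩
    fin_cases i <;> simp [zA, rM, rootMat, repO, Mono.val, Matrix.add_mulVec, Matrix.mulVec,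
      dotProduct, Fin.sum_univ_eight, Matrix.single_apply, h1, h2, h3]
    field_simp
    grobner

set_option maxHeartbeats 2000000 in
theorem eq_blkM {S : Matrix (Fin 8) (Fin 8) K} (hS : IsEndo S) (hu : IsUnit S)
    (he : S *ᵥ e0 K = e0 K) : ∃ A : SpecialLinearGroup (Fin 3) K, S = blkM A.1 := by
  have h7 : S *ᵥ Pi.single 7 1 = Pi.single 7 1 := by
    rw [show (Pi.single 7 1 : Fin 8 → K) = oneO K - e0 K by
      funext i; fin_cases i <;> simp [oneO, e0, Pi.single_apply],
      Matrix.mulVec_sub, endo_one hS hu, he]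
  have hA : ∀ x, zornMul (e0 K) x = x → zornMul x (e0 K) = 0 →
      S *ᵥ x = vec8 0 (zA K (S *ᵥ x)) 0 0 := by
    intro x hl hr
    have e1 := hS (e0 K) x
    have e2 := hS x (e0 K)
    rw [hl, he] at e1
    rw [hr, he, Matrix.mulVec_zero] at e2
    revert e1 e2
    generalize S *ᵥ x = y
    intro e1 e2
    funext i
    have c := congrFun e1 i
    have d := congrFun e2 i
    fin_cases i <;> simp [vec8, zornMul, e0, zA, zB, dot3, cross3, Pi.single_apply] at c d ⊢ <;>
      first | assumption | exact d.symm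
  have hB : ∀ x, zornMul (e0 K) x = 0 → zornMul x (e0 K) = x →
      S *ᵥ x = vec8 0 0 (zB K (S *ᵥ x)) 0 := by
    intro x hl hr
    have e1 := hS (e0 K) x
    have e2 := hS x (e0 K)
    rw [hl, he, Matrix.mulVec_zero] at e1
    rw [hr, he] at e2
    revert e1 e2
    generalize S *ᵥ x = y
    intro e1 e2
    funext i
    have c := congrFun e1 i
    have d := congrFun e2 i
    fin_cases i <;> simp [vec8, zornMul, e0, zA, zB, dot3, cross3, Pi.single_apply] at c d ⊢ <;>
      first | assumption | exact c.symm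
  have single_props : (∀ i ∈ [1, 2, 3], zornMul (e0 K) (Pi.single i 1) = Pi.single i 1 ∧
      zornMul (Pi.single i 1) (e0 K) = (0 : Fin 8 → K)) ∧
      (∀ i ∈ [4, 5, 6], zornMul (e0 K) (Pi.single i 1) = (0 : Fin 8 → K) ∧
      zornMul (Pi.single i 1) (e0 K) = Pi.single i 1) := by
    simp only [List.forall_mem_cons, List.not_mem_nil, IsEmpty.forall_iff, implies_true, and_true]
    refine ⟨⟨⟨?_, ?_⟩, ⟨?_, ?_⟩, ⟨?_, ?_⟩⟩, ⟨⟨?_, ?_⟩, ⟨?_, ?_⟩, ⟨?_, ?_⟩⟩⟩ <;>
      (funext j; fin_cases j <;> simp [zornMul, e0, zA, zB, dot3, cross3, Pi.single_apply])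
  obtain ⟨sA, sB⟩ := single_props
  have c1 := hA _ (sA 1 (by simp)).1 (sA 1 (by simp)).2
  have c2 := hA _ (sA 2 (by simp)).1 (sA 2 (by simp)).2
  have c3 := hA _ (sA 3 (by simp)).1 (sA 3 (by simp)).2
  have c4 := hB _ (sB 4 (by simp)).1 (sB 4 (by simp)).2
  have c5 := hB _ (sB 5 (by simp)).1 (sB 5 (by simp)).2
  have c6 := hB _ (sB 6 (by simp)).1 (sB 6 (by simp)).2
  let A : Matrix (Fin 3) (Fin 3) K := Matrix.of fun i j => S (![1, 2, 3] i) (![1, 2, 3] j)
  have p23 := hS (Pi.single 2 1) (Pi.single 3 1)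
  have p31 := hS (Pi.single 3 1) (Pi.single 1 1)
  have p12 := hS (Pi.single 1 1) (Pi.single 2 1)
  have q23 : zornMul (Pi.single 2 1) (Pi.single 3 1) = (Pi.single 4 1 : Fin 8 → K) := by
    funext i; fin_cases i <;> simp [zornMul, zA, zB, dot3, cross3, Pi.single_apply]
  have q31 : zornMul (Pi.single 3 1) (Pi.single 1 1) = (Pi.single 5 1 : Fin 8 → K) := by
    funext i; fin_cases i <;> simp [zornMul, zA, zB, dot3, cross3, Pi.single_apply]
  have q12 : zornMul (Pi.single 1 1) (Pi.single 2 1) = (Pi.single 6 1 : Fin 8 → K) := by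
    funext i; fin_cases i <;> simp [zornMul, zA, zB, dot3, cross3, Pi.single_apply]
  rw [q23] at p23; rw [q31] at p31; rw [q12] at p12
  rw [c2, c3] at p23; rw [c3, c1] at p31; rw [c1, c2] at p12
  have p14 := hS (Pi.single 1 1) (Pi.single 4 1)
  have q14 : zornMul (Pi.single 1 1) (Pi.single 4 1) = e0 K := by
    funext i; fin_cases i <;> simp [zornMul, e0, zA, zB, dot3, cross3, Pi.single_apply]
  rw [q14, he, c1, p23] at p14
  have hdet : A.det = 1 := by
    have := congrFun p14 0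
    simp only [Matrix.mulVec_single_one] at this
    simp [zornMul, vec8, e0, zA, zB, dot3, cross3, A] at this
    simp [det_fin_three, A]
    linear_combination -this
  refine ⟨⟨A, hdet⟩, Matrix.ext_of_mulVec_single fun j => ?_⟩
  rw [blkM_mulVec]
  fin_cases j
  · exact he.trans (funext fun i => by fin_cases i <;> simp [vec8, e0, zA, zB, Matrix.mulVec, dotProduct, Fin.sum_univ_three])
  · refine c1.trans ?_
    simp only [Matrix.mulVec_single_one]
    funext i; fin_cases i <;>
      simp [vec8, zA, zB, Matrix.mulVec, dotProduct, Fin.sum_univ_three, A]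
  · refine c2.trans ?_
    simp only [Matrix.mulVec_single_one]
    funext i; fin_cases i <;>
      simp [vec8, zA, zB, Matrix.mulVec, dotProduct, Fin.sum_univ_three, A]
  · refine c3.trans ?_
    simp only [Matrix.mulVec_single_one]
    funext i; fin_cases i <;>
      simp [vec8, zA, zB, Matrix.mulVec, dotProduct, Fin.sum_univ_three, A]
  · refine p23.trans ?_
    simp only [Matrix.mulVec_single_one]
    funext i; fin_cases i <;>
      simp [zornMul, dot3, cross3, vec8, zA, zB, Matrix.mulVec, dotProduct, Fin.sum_univ_three, A,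
        adjugate_fin_three] <;> ring
  · refine p31.trans ?_
    simp only [Matrix.mulVec_single_one]
    funext i; fin_cases i <;>
      simp [zornMul, dot3, cross3, vec8, zA, zB, Matrix.mulVec, dotProduct, Fin.sum_univ_three, A,
        adjugate_fin_three] <;> ring
  · refine p12.trans ?_
    simp only [Matrix.mulVec_single_one]
    funext i; fin_cases i <;>
      simp [zornMul, dot3, cross3, vec8, zA, zB, Matrix.mulVec, dotProduct, Fin.sum_univ_three, A,
        adjugate_fin_three] <;> ring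
  · exact h7.trans (funext fun i => by
      fin_cases i <;> simp [vec8, zA, zB, Matrix.mulVec, dotProduct, Fin.sum_univ_three])

end Cfsg.Agent.G2Spec
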