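import Cfsg.Agent.G2Spec.Conj

/-!
# Diagonal forms of semisimple automorphisms
-/

set_option autoImplicit false

namespace Cfsg.Agent.G2Spec

open Cfsg.Lie Matrix

variable {K : Type*} [Field K] [IsAlgClosed K]

theorem exists_eigenbasis {n : ℕ} {A : Matrix (Fin n) (Fin n) K} {m : ℕ} (hm : (m : K) ≠ 0)
    (hA : A ^ m = 1) :
    ∃ (v : Fin n → Fin n → K) (d : Fin n → K),
      LinearIndependent K v ∧ ∀ j, A *ᵥ v j = d j • v j := by
  obtain ⟨b, hb, hspan, hli⟩ :=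
    exists_linearIndependent K {v : Fin n → K | ∃ μ : K, A *ᵥ v = μ • v}
  rw [span_eigen hm hA] at hspan
  let B := Module.Basis.mk hli (by rw [Subtype.range_coe]; exact hspan.ge)
  haveI : Fintype b := FiniteDimensional.fintypeBasisIndex B
  have hcard : Fintype.card b = n := by
    rw [← Module.finrank_eq_card_basis B, Module.finrank_fintype_fun_eq_card, Fintype.card_fin]
  let e := (Fintype.equivFinOfCardEq hcard).symm
  choose d hd using fun j => hb (e j).2
  exact ⟨fun j => (e j : Fin n → K), d, hli.comp e e.injective, hd⟩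

theorem exists_diag_sl {A : Matrix (Fin 3) (Fin 3) K} (hdet : A.det = 1) {m : ℕ}
    (hm : (m : K) ≠ 0) (hA : A ^ m = 1) :
    ∃ d : Fin 3 → K, d 0 * d 1 * d 2 = 1 ∧ ∀ π : Equiv.Perm (Fin 3),
      ∃ P : SpecialLinearGroup (Fin 3) K, A * P.1 = P.1 * Matrix.diagonal (d ∘ π) := by
  obtain ⟨v, d, hv, hd⟩ := exists_eigenbasis hm hA
  have aux : ∀ π : Equiv.Perm (Fin 3),
      ∃ P : SpecialLinearGroup (Fin 3) K, A * P.1 = P.1 * Matrix.diagonal (d ∘ π) := by
    intro π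
    let P0 : Matrix (Fin 3) (Fin 3) K := (Matrix.of fun j => v (π j))ᵀ
    have hu : IsUnit P0 := by
      rw [← Matrix.linearIndependent_cols_iff_isUnit]
      exact hv.comp π π.injective
    have hP0 : P0.det ≠ 0 := ((Matrix.isUnit_iff_isUnit_det _).1 hu).ne_zero
    have hAP : A * P0 = P0 * Matrix.diagonal (d ∘ π) := by
      ext i j
      rw [Matrix.mul_diagonal]
      have h := congrFun (hd (π j)) i
      simp only [Matrix.mulVec, dotProduct, Pi.smul_apply, smul_eq_mul] at h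
      simp only [Matrix.mul_apply, P0, Matrix.transpose_apply, Matrix.of_apply, Function.comp_apply]
      rw [h, mul_comm]
    refine ⟨⟨P0 * Matrix.diagonal ![P0.det⁻¹, 1, 1], ?_⟩, ?_⟩
    · rw [Matrix.det_mul, Matrix.det_diagonal, Fin.prod_univ_three]
      simp [hP0]
    · show A * (P0 * _) = P0 * _ * _
      rw [← Matrix.mul_assoc, hAP, Matrix.mul_assoc, Matrix.mul_assoc, Matrix.diagonal_mul_diagonal,
        Matrix.diagonal_mul_diagonal]
      congr 2
      funext i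
      exact mul_comm _ _
  refine ⟨d, ?_, aux⟩
  obtain ⟨P, hP⟩ := aux 1
  have := congrArg Matrix.det hP
  rw [Matrix.det_mul, Matrix.det_mul, P.2, hdet, Matrix.det_diagonal, Fin.prod_univ_three,
    one_mul] at this
  simpa using this.symm

/-- A semisimple element of `G2 K` is conjugate to `diag(1, d, d⁻¹, 1)`. -/
theorem exists_diag (h2 : (2 : K) ≠ 0) {g : GL (Fin 8) K} (hg : g ∈ G2 K) {m : ℕ}
    (hm : (m : K) ≠ 0) (hgm : g ^ m = 1) :
    ∃ d : Fin 3 → K, d 0 * d 1 * d 2 = 1 ∧ ∀ π : Equiv.Perm (Fin 3),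
      ∃ h ∈ G2 K, ((h * g * h⁻¹ : GL (Fin 8) K) : Matrix (Fin 8) (Fin 8) K) =
        blkM (Matrix.diagonal (d ∘ π)) := by
  have hone : ∀ g ∈ G2 K, (g : Matrix (Fin 8) (Fin 8) K) *ᵥ oneO K = oneO K :=
    fun g hg => endo_one (mem_endo hg) g.isUnit
  obtain ⟨e, he, ht, hn⟩ := exists_idem (mem_endo hg) h2 hm
    (by rw [← Units.val_pow_eq_pow_val, hgm, Units.val_one])
  obtain ⟨k, hk, hke⟩ := exists_conj_e0 ht hn
  obtain ⟨f, hf, hkf⟩ : ∃ f, (g : Matrix (Fin 8) (Fin 8) K) *ᵥ f = f ∧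
      (k : Matrix (Fin 8) (Fin 8) K) *ᵥ f = e0 K := by
    rcases hke with h | h
    · exact ⟨e, he, h⟩
    · exact ⟨oneO K - e, by rw [Matrix.mulVec_sub, hone g hg, he], h⟩
  set g' := k * g * k⁻¹ with hg'def
  have hg' : g' ∈ G2 K := mul_mem (mul_mem hk hg) (inv_mem hk)
  have he0 : (g' : Matrix (Fin 8) (Fin 8) K) *ᵥ e0 K = e0 K := by
    rw [← hkf, Matrix.mulVec_mulVec, ← Units.val_mul, hg'def, inv_mul_cancel_right, Units.val_mul,
      ← Matrix.mulVec_mulVec, hf]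
  obtain ⟨A, hA⟩ := eq_blkM (mem_endo hg') g'.isUnit he0
  have hgA : g' = blkHom A := Units.ext hA
  have hAm : A ^ m = 1 := blkHom_injective (by
    rw [map_pow, map_one, ← hgA, hg'def, conj_pow, hgm, mul_one, mul_inv_cancel])
  obtain ⟨d, hd, hP⟩ := exists_diag_sl A.2 hm
    (by have := congrArg (fun B : SpecialLinearGroup (Fin 3) K => B.1) hAm; simpa using this)
  refine ⟨d, hd, fun π => ?_⟩
  obtain ⟨P, hP⟩ := hP π
  refine ⟨(blkHom P)⁻¹ * k, mul_mem (inv_mem (blkHom_mem_G2 P)) hk, ?_⟩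
  rw [show (blkHom P)⁻¹ * k * g * ((blkHom P)⁻¹ * k)⁻¹ = (blkHom P)⁻¹ * g' * blkHom P by
      rw [hg'def]; group, hgA, ← map_inv, ← map_mul, ← map_mul, val_blkHom]
  congr 1
  rw [Matrix.SpecialLinearGroup.coe_mul, Matrix.SpecialLinearGroup.coe_mul, Matrix.mul_assoc, hP,
    ← Matrix.mul_assoc, ← Matrix.SpecialLinearGroup.coe_mul, inv_mul_cancel,
    Matrix.SpecialLinearGroup.coe_one, Matrix.one_mul]

end Cfsg.Agent.G2Spec
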