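import Cfsg.Agent.G2Spec.Orders
import Cfsg.Agent.SpecGL.Basic
import Cfsg.Agent.CycTori.Main
import Cfsg.Agent.LieTori.SylowInst
import Cfsg.Agent.LieTori.RankBoundInst
import Cfsg.Agent.ChevGrp.Unimodular

/-!
# Elements of the maximal orders in the Chevalley group of type G2
-/

set_option autoImplicit false

namespace Cfsg.Agent.G2Spec

open Cfsg.Lie Matrix Cfsg.Agent.Chev.Classical

/-- The inverse of the Cartan matrix of type G2. -/
def invG2 : Matrix (Fin chevG2.rank) (Fin chevG2.rank) ℤ :=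
  (![![2, 3], ![1, 2]] : Fin 2 → Fin 2 → ℤ)

theorem topG2 : CycTori.TopData chevG2 invG2 11 where
  mul_inv := by decide +kernel
  inv_mul := by decide +kernel
  top_lt := by decide +kernel
  two_le := by decide +kernel
  le_six := by decide +kernel
  le_top := by decide +kernel
  sign := by decide +kernel

theorem rM_map {R S : Type*} [CommRing R] [CommRing S] (f : R →+* S) (r : ℕ) (t : R) :
    (rM r t).map f = rM r (f t) := by
  have hL : ∀ L : List (Mono 8), (meval t 0 L).map f = meval (f t) 0 L := by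
    intro L
    rw [meval, meval]
    induction L with
    | nil => ext i j; simp
    | cons m L ih =>
      rw [List.map_cons, List.sum_cons, List.map_cons, List.sum_cons,
        Matrix.map_add _ (map_add f), ih]
      congr 1
      ext i j
      simp [Matrix.map_apply, Mono.val, Matrix.single_apply, apply_ite f, map_mul, map_pow]
  rw [rM, rM, rootMat, rootMat, Matrix.map_add _ (map_add f), Matrix.map_one _ (map_zero f) (map_one f)]
  exact congrArg (1 + ·) (hL _)

variable {F : Type*} [Field F] [Fintype F]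

/-- All root elements and the special linear group lie in the image of the Chevalley group. -/
theorem exists_lift (hF : 3 ≤ Fintype.card F) :
    ∃ H : Subgroup (GL (Fin 8) F), H ≤ G2 F ∧ (∀ r (hr : r < 12) (t : F), rU r hr t ∈ H) ∧
      (∀ A : SpecialLinearGroup (Fin 3) F, blkHom A ∈ H) ∧
      ∀ g ∈ H, ∃ x : ↥(chevG2.group F), orderOf x = orderOf g := by
  obtain ⟨ρ, hρ, hgen⟩ := exists_rho hF
  let f := (G2 F).subtype.comp ρ
  have hr' : ∀ r < 12, ∀ t : F, ∃ g ∈ f.range, (g : Matrix (Fin 8) (Fin 8) F) = rM r t := by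
    intro r hr t
    obtain ⟨x, hx⟩ := hgen r hr t
    exact ⟨f x, ⟨x, rfl⟩, hx⟩
  refine ⟨f.range, ?_, fun r hr t => ?_, fun A => blkHom_mem hr' A, ?_⟩
  · rintro _ ⟨x, rfl⟩; exact (ρ x).2
  · obtain ⟨g, hg, hg'⟩ := hr' r hr t
    rwa [show rU r hr t = g from Units.ext hg'.symm]
  · rintro _ ⟨x, rfl⟩
    exact ⟨x, (orderOf_injective f ((G2 F).subtype_injective.comp hρ) x).symm⟩

/-- `GL₂` inside `SL₃`. -/
def embM (M : Matrix (Fin 2) (Fin 2) F) : Matrix (Fin 3) (Fin 3) F :=
  !![(M.det)⁻¹, 0, 0; 0, M 0 0, M 0 1; 0, M 1 0, M 1 1]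

theorem det_embM {M : Matrix (Fin 2) (Fin 2) F} (h : M.det ≠ 0) : (embM M).det = 1 := by
  rw [det_fin_three]
  simp [embM]
  rw [det_fin_two] at h ⊢
  field_simp

theorem embM_mul (M N : Matrix (Fin 2) (Fin 2) F) : embM (M * N) = embM M * embM N := by
  ext i j
  fin_cases i <;> fin_cases j <;>
    simp [embM, Matrix.mul_apply, Fin.sum_univ_three, Fin.sum_univ_two, Matrix.det_mul, _root_.mul_inv_rev,
      mul_comm]

/-- As a homomorphism. -/
def embHom : GL (Fin 2) F →* SpecialLinearGroup (Fin 3) F where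
  toFun g := ⟨embM g.1, det_embM (Matrix.GeneralLinearGroup.det g).ne_zero⟩
  map_one' := Subtype.ext (by
    ext i j
    fin_cases i <;> fin_cases j <;> simp [embM])
  map_mul' g h := Subtype.ext (embM_mul g.1 h.1)

theorem embHom_injective : Function.Injective (embHom : GL (Fin 2) F → SpecialLinearGroup (Fin 3) F) := by
  intro g h e
  have e' : embM g.1 = embM h.1 := congrArg Subtype.val e
  refine Units.ext (Matrix.ext fun i j => ?_)
  have := congrFun (congrFun e' i.succ) j.succ
  fin_cases i <;> fin_cases j <;> simpa [embM] using this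

/-- A Singer cycle as a unit. -/
theorem exists_gl_two : ∃ A : GL (Fin 2) F, orderOf A = Fintype.card F ^ 2 - 1 := by
  obtain ⟨M, hM, hMo⟩ :=
    Spectrum.exists_orderOf_eq_pow_sub_one (F := F) (n := 2) (d := 2) (by norm_num) le_rfl
  exact ⟨Matrix.GeneralLinearGroup.mkOfDetNeZero M hM, by rw [← orderOf_units]; exact hMo⟩

theorem rU_pow (r : ℕ) (hr : r < 12) : ∀ k : ℕ, (rU r hr (1 : F)) ^ k = rU r hr (k : F) := by
  intro k
  induction k with
  | zero =>
    rw [pow_zero, Nat.cast_zero]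
    refine Units.ext (Eq.symm ?_)
    exact rootMat_zero addOK_repO (show r < chevG2.nroots from hr)
  | succ k ih =>
    rw [pow_succ, ih, Nat.cast_succ]
    exact Units.ext (rootMat_add addOK_repO (show r < chevG2.nroots from hr) _ _)

set_option maxHeartbeats 4000000 in
theorem commute_rU {A : GL (Fin 2) F} (hA : (A : Matrix (Fin 2) (Fin 2) F).det = 1) :
    Commute (rU 7 (by norm_num) (1 : F)) (blkHom (embHom A)) := by
  refine Units.ext ?_
  show rM 7 (1 : F) * blkM (embM A.1) = blkM (embM A.1) * rM 7 (1 : F)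
  rw [det_fin_two] at hA
  ext i j
  fin_cases i <;> fin_cases j <;>
    simp [rM, rootMat, repO, blkM, embM, Mono.val, Matrix.mul_apply, Fin.sum_univ_eight,
      Matrix.single_apply, adjugate_fin_three, det_fin_two, hA]

theorem orderOf_rU {p : ℕ} (hp : p.Prime) [CharP F p] :
    orderOf (rU 7 (by norm_num) (1 : F)) = p := by
  haveI := Fact.mk hp
  refine orderOf_eq_prime ?_ fun h => ?_
  · rw [rU_pow, CharP.cast_eq_zero]
    exact Units.ext (rootMat_zero addOK_repO (show 7 < chevG2.nroots by decide))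
  · have := congrArg (fun g : GL (Fin 8) F => (g : Matrix (Fin 8) (Fin 8) F) 1 0) h
    simp [rU, rM, rootMat, repO, Mono.val] at this

/-- Elements of the orders `p(q-1)`, `p(q+1)`, `q²-1`, `q²+q+1`. -/
theorem exists_orders {p a : ℕ} (hp : p.Prime) (ha : 1 ≤ a) (hF : Fintype.card F = p ^ a)
    (h3 : 3 ≤ Fintype.card F) :
    let q := p ^ a
    ∀ n ∈ [p * (q - 1), p * (q + 1), q ^ 2 - 1, q ^ 2 + q + 1],
      ∃ x : ↥(chevG2.group F), orderOf x = n := by
  classical
  intro q
  haveI := Fact.mk hp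
  haveI : CharP F p := charP_of_card_eq_prime_pow hF
  obtain ⟨H, -, hU, hB, hlift⟩ := exists_lift h3
  have hq : Fintype.card F = q := hF
  have hq3 : 3 ≤ q := hq ▸ h3
  have hpq : p ∣ q := dvd_pow_self p (by omega)
  have hcop : ∀ n, (n + 1 = q ∨ q + 1 = n) → p.Coprime n := by
    intro n hn
    refine (hp.coprime_iff_not_dvd).2 fun hd => ?_
    rcases hn with h | h
    · exact hp.not_dvd_one ((Nat.dvd_add_right hd).1 (h ▸ hpq))
    · exact hp.not_dvd_one ((Nat.dvd_add_right hpq).1 (h ▸ hd))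
  have key : ∀ A : GL (Fin 2) F, (A : Matrix (Fin 2) (Fin 2) F).det = 1 → p.Coprime (orderOf A) →
      ∃ x : ↥(chevG2.group F), orderOf x = p * orderOf A := by
    intro A hA hc
    obtain ⟨x, hx⟩ := hlift _ (mul_mem (hU 7 (by norm_num) 1) (hB (embHom A)))
    refine ⟨x, hx.trans ?_⟩
    have e : orderOf (blkHom (embHom A)) = orderOf A :=
      (orderOf_injective _ blkHom_injective _).trans (orderOf_injective _ embHom_injective _)
    rw [(commute_rU hA).orderOf_mul_eq_mul_orderOf_of_coprime (by rw [e, orderOf_rU hp]; exact hc),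
      e, orderOf_rU hp]
  obtain ⟨A, hA⟩ := exists_gl_two (F := F)
  rw [hq] at hA
  intro n hn
  simp only [List.mem_cons, List.not_mem_nil, or_false] at hn
  rcases hn with rfl | rfl | rfl | rfl
  · obtain ⟨u, hu⟩ := IsCyclic.exists_ofOrder_eq_natCard (α := Fˣ)
    rw [Nat.card_units, Nat.card_eq_fintype_card, hq] at hu
    have hM : (!![(u : F), 0; 0, ((u⁻¹ : Fˣ) : F)]).det ≠ 0 := by simp [det_fin_two]
    let D : Fˣ →* GL (Fin 2) F :=
      MonoidHom.toHomUnits
        { toFun := fun v => !![(v : F), 0; 0, ((v⁻¹ : Fˣ) : F)]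
          map_one' := by ext i j; fin_cases i <;> fin_cases j <;> simp
          map_mul' := fun v w => by
            ext i j; fin_cases i <;> fin_cases j <;> simp [Matrix.mul_apply, Fin.sum_univ_two, mul_comm] }
    have hDi : Function.Injective D := fun v w h => by
      refine Units.ext ?_
      have := congrArg (fun g : GL (Fin 2) F => (g : Matrix (Fin 2) (Fin 2) F) 0 0) h
      simpa [D] using this
    have hDu : orderOf (D u) = q - 1 := (orderOf_injective D hDi u).trans hu
    have := key (D u) (by simp [D, det_fin_two]) (by rw [hDu]; exact hcop _ (Or.inl (by omega)))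
    rwa [hDu] at this
  · have hdet : ((A ^ (q - 1) : GL (Fin 2) F) : Matrix (Fin 2) (Fin 2) F).det = 1 := by
      rw [Units.val_pow_eq_pow_val, Matrix.det_pow, ← hq]
      exact FiniteField.pow_card_sub_one_eq_one _ (Matrix.GeneralLinearGroup.det A).ne_zero
    have hsq : q ^ 2 - 1 = (q + 1) * (q - 1) := by rw [← Nat.sq_sub_sq, one_pow]
    have ho : orderOf (A ^ (q - 1)) = q + 1 := by
      rw [orderOf_pow_of_dvd (by omega) (by rw [hA, hsq]; exact dvd_mul_left _ _), hA, hsq,
        Nat.mul_div_cancel _ (by omega)]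
    have := key _ hdet (by rw [ho]; exact hcop _ (Or.inr rfl))
    rwa [ho] at this
  · obtain ⟨x, hx⟩ := hlift _ (hB (embHom A))
    exact ⟨x, hx.trans ((orderOf_injective _ blkHom_injective _).trans
      ((orderOf_injective _ embHom_injective _).trans hA))⟩
  · obtain ⟨T, hT⟩ := SpecGL.exists_singer_sl (F := F) (n := 3)
    obtain ⟨x, hx⟩ := hlift _ (hB T)
    refine ⟨x, hx.trans ((orderOf_injective _ blkHom_injective _).trans (hT.trans ?_))⟩
    rw [hq]
    refine Nat.div_eq_of_eq_mul_left (by omega) ?_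
    obtain ⟨c, hc⟩ : ∃ c, q = c + 1 := ⟨q - 1, by omega⟩
    rw [hc, show (c + 1) ^ 3 = ((c + 1) ^ 2 + (c + 1) + 1) * c + 1 by ring, Nat.add_sub_cancel,
      Nat.add_sub_cancel]

theorem sq_unip_facts :
    ((rM 7 (1 : ZMod 3) * rM 6 1) ^ 9 = 1 ∧ (rM 7 (1 : ZMod 3) * rM 6 1) ^ 3 ≠ 1) ∧
      (rM 7 (1 : ZMod 5) * rM 6 1) ^ 25 = 1 ∧ (rM 7 (1 : ZMod 5) * rM 6 1) ^ 5 ≠ 1 := by
  decide +kernel

theorem exists_order_sq {p : ℕ} (hp : p = 3 ∨ p = 5) [CharP F p] (h3 : 3 ≤ Fintype.card F) :
    ∃ x : ↥(chevG2.group F), orderOf x = p ^ 2 := by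
  have hP : p.Prime := by rcases hp with rfl | rfl <;> norm_num
  haveI := Fact.mk hP
  obtain ⟨H, -, hU, -, hlift⟩ := exists_lift h3
  obtain ⟨x, hx⟩ := hlift _ (mul_mem (hU 7 (by norm_num) 1) (hU 6 (by norm_num) 1))
  refine ⟨x, hx.trans ?_⟩
  have hfacts : (rM 7 (1 : ZMod p) * rM 6 1) ^ p ^ 2 = 1 ∧ (rM 7 (1 : ZMod p) * rM 6 1) ^ p ^ 1 ≠ 1 := by
    rcases hp with rfl | rfl
    · exact sq_unip_facts.1
    · exact sq_unip_facts.2
  let f : ZMod p →+* F := ZMod.castHom dvd_rfl F
  have hv : ∀ k : ℕ, (((rU 7 (by norm_num) (1 : F) * rU 6 (by norm_num) 1) ^ k : GL (Fin 8) F) :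
      Matrix (Fin 8) (Fin 8) F) = ((rM 7 (1 : ZMod p) * rM 6 1) ^ k).map f := by
    intro k
    have e := map_pow f.mapMatrix (rM 7 (1 : ZMod p) * rM 6 1) k
    simp only [RingHom.mapMatrix_apply, Matrix.map_mul, rM_map, map_one] at e
    rw [Units.val_pow_eq_pow_val, Units.val_mul]
    exact e.symm
  refine orderOf_eq_prime_pow (fun h => hfacts.2 ?_) (Units.ext ?_)
  · have e := hv (p ^ 1)
    rw [h, Units.val_one] at e
    exact Matrix.map_injective f.injective (by simpa using e.symm)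
  · rw [hv, hfacts.1]
    simp

/-- An element of order `q²-q+1`. -/
theorem exists_order_six {q : ℕ} (hq : Fintype.card F = q) (h3 : 3 ≤ q) :
    ∃ x : ↥(chevG2.group F), orderOf x = q ^ 2 - q + 1 := by
  classical
  set N := q ^ 2 - q + 1 with hN
  have hle : q ≤ q ^ 2 := Nat.le_self_pow (by norm_num) q
  have hint : (N : ℤ) = (q : ℤ) ^ 2 - q + 1 := by rw [hN, Nat.cast_add, Nat.cast_sub hle]; push_cast; rfl
  have hNv : (Polynomial.cyclotomic 6 ℤ).eval (q : ℤ) = (N : ℤ) := by
    rw [hint, Polynomial.cyclotomic_six]; simp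
  have hmod : ∀ s : ℕ, ∀ P : Prop, (∀ a : ZMod s, a ^ 2 - a + 1 = 0 → P) → s ∣ N → P := by
    intro s P h hd
    refine h (q : ZMod s) ?_
    have := congrArg (Int.cast : ℤ → ZMod s) hint
    push_cast at this
    rw [← this, (ZMod.natCast_eq_zero_iff N s).2 hd]
  have h2 : ¬ 2 ∣ N := hmod 2 False (by decide)
  have h9 : ¬ 9 ∣ N := hmod 9 False (by decide)
  have h5 : ¬ 5 ∣ N := hmod 5 False (by decide)
  have hN7 : 7 ≤ N := by
    obtain ⟨c, rfl⟩ : ∃ c, q = c + 3 := ⟨q - 3, by omega⟩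
    rw [hN]
    have : (c + 3) ^ 2 = c * c + 6 * c + 9 := by ring
    omega
  obtain ⟨r, hr, hrN, hr3⟩ : ∃ r, r.Prime ∧ r ∣ N ∧ r ≠ 3 := by
    by_contra hc
    push Not at hc
    obtain ⟨k, hk⟩ : ∃ k, N = 3 ^ k := by
      refine ⟨N.primeFactorsList.length, ?_⟩
      conv_lhs => rw [← Nat.prod_primeFactorsList (by omega : N ≠ 0)]
      exact List.prod_eq_pow_card _ _ fun p hp =>
        hc p (Nat.prime_of_mem_primeFactorsList hp) (Nat.dvd_of_mem_primeFactorsList hp)
    rcases Nat.lt_or_ge k 2 with hk2 | hk2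
    · interval_cases k <;> omega
    · exact h9 (hk ▸ pow_dvd_pow 3 hk2)
  haveI := Fact.mk hr
  have hr7 : 6 < r := by
    have := hr.two_le
    by_contra hlt
    interval_cases r
    · exact h2 hrN
    · exact hr3 rfl
    · norm_num at hr
    · exact h5 hrN
    · norm_num at hr
  have hbad : ∀ s : ℕ, s.Prime → s ∣ 6 → s ∣ N → ¬ s ^ 2 ∣ N := fun s hs hs6 hsN hs2 => by
    have := Nat.le_of_dvd (by norm_num) hs6
    interval_cases s
    · exact absurd hs Nat.not_prime_zero
    · exact absurd hs Nat.not_prime_one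
    · exact h2 hsN
    · exact h9 hs2
    all_goals omega
  obtain ⟨T, hTc, hTN, -⟩ := CycTori.exists_cyclic (D := chevG2) (by simp) topG2
    ChevGrp.unimodular_G2 LieTori.detG2' (L := [2, 6]) rfl LieTori.weylG2 (h := 6) (by simp)
    (by norm_num) (by decide +kernel) hq (LieTori.orderG2 F) (fun K _ _ => LieTori.orderG2 K) hNv
    (by omega) hbad r hrN hr7
    (fun h => by have := Nat.le_of_dvd (by norm_num) h; omega)
    (fun h => by
      have := hr.dvd_mul.1 (show r ∣ 2 * 6 from h)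
      rcases this with h | h <;> (have := Nat.le_of_dvd (by norm_num) h; omega))
  obtain ⟨g, hg⟩ := IsCyclic.exists_ofOrder_eq_natCard (α := T)
  exact ⟨g, by rw [Subgroup.orderOf_coe, hg, hTN]⟩

end Cfsg.Agent.G2Spec
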