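import Cfsg.Agent.G2Spec.Rep
import Cfsg.Agent.CentralExt.SteinbergCover
import Cfsg.Agent.ChevGrp.PerfectData

/-!
# The group of type G2 acts faithfully on the octonions
-/

set_option autoImplicit false

namespace Cfsg.Agent.G2Spec

open Cfsg.Lie Cfsg.Agent.Chev.Classical Matrix Cfsg.Agent.ChevGrp

variable {F : Type*} [Field F]

theorem val_mem_G2 {g : GL (Fin 8) F} (h : IsEndo (g : Matrix (Fin 8) (Fin 8) F)) : g ∈ G2 F :=
  h

theorem exists_rho [Fintype F] (hF : 3 ≤ Fintype.card F) :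
    ∃ ρ : ↥(chevG2.group F) →* ↥(G2 F), Function.Injective ρ ∧
      ∀ r < 12, ∀ t : F, ∃ g : ↥(chevG2.group F),
        ((ρ g : GL (Fin 8) F) : Matrix (Fin 8) (Fin 8) F) = rM r t := by
  classical
  have hS : Rules chevG2 F := Chev.rules_of_mem F (by simp)
  obtain ⟨ψ, hψ⟩ := exists_hom repO_ok hS (Equiv.refl (Fin 8))
    (fun v => dotProduct v ((meval 0 0 repO.form).mulVec v)) (fun v => rfl)
  obtain ⟨e₁, he₁⟩ := Cfsg.Agent.CentralExt.Cover.exists_equiv_steinberg hS
  obtain ⟨θ, hsurj, hker, hθ⟩ := S1077.result (K := F) chevG2 (by simp)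
  have hinj : Function.Injective θ := (MonoidHom.ker_eq_bot_iff θ).1
    (by rw [hker, S1078.result (K := F) chevG2 (by simp)])
  let e₂ := MulEquiv.ofBijective θ ⟨hinj, hsurj⟩
  let f : ↥(chevG2.group F) →* GL (Fin 8) F :=
    (Subgroup.subtype _).comp (ψ.comp (e₁.symm.toMonoidHom.comp e₂.symm.toMonoidHom))
  have hgen : ∀ r < 12, ∀ t : F, (f (θ (chevG2.stGen F r t)) : Matrix (Fin 8) (Fin 8) F) = rM r t := by
    intro r hr t
    have e : f (θ (chevG2.stGen F r t)) = (ψ (chevG2.scGen F r t) : GL (Fin 8) F) := by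
      show ((ψ (e₁.symm (e₂.symm (e₂ (chevG2.stGen F r t))))) : GL (Fin 8) F) = _
      rw [MulEquiv.symm_apply_apply, ← he₁, MulEquiv.symm_apply_apply]
    rw [e]
    refine Matrix.ext_of_mulVec_single fun j => ?_
    rw [hψ r hr t]
    rfl
  have hmem : ∀ g, f g ∈ G2 F := by
    intro g
    obtain ⟨x, rfl⟩ := hsurj g
    refine Subgroup.mem_comap.1 (show x ∈ (G2 F).comap (f.comp θ) from ?_)
    refine (eq_top_iff.1 (show (G2 F).comap (f.comp θ) = ⊤ from ?_)) (Subgroup.mem_top x)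
    rw [eq_top_iff, ← PresentedGroup.closure_range_of, Subgroup.closure_le]
    rintro _ ⟨⟨r, t⟩, rfl⟩
    refine val_mem_G2 ?_
    have e : (PresentedGroup.of (r, t) : chevG2.SteinbergGroup F) = chevG2.stGen F r t := by
      simp [ChevalleyDatum.stGen, ChevalleyDatum.stX, PresentedGroup.of]
    rw [MonoidHom.comp_apply, e, hgen r r.2 t]
    exact rM_endo r r.2 t
  let ρ := f.codRestrict (G2 F) hmem
  have hrho : ∀ r < 12, ∀ t : F, ∃ g : ↥(chevG2.group F),
      ((ρ g : GL (Fin 8) F) : Matrix (Fin 8) (Fin 8) F) = rM r t :=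
    fun r hr t => ⟨θ (chevG2.stGen F r t), hgen r hr t⟩
  refine ⟨ρ, ?_, hrho⟩
  have ha : ∃ a : F, a ≠ 0 ∧ a ≠ 1 := by
    by_contra hc
    push Not at hc
    have : Fintype.card F ≤ 2 := by
      refine (Finset.card_le_card (s := Finset.univ) (t := {0, 1}) fun x _ => ?_).trans
        Finset.card_le_two
      by_cases hx : x = 0
      · simp [hx]
      · simp [hc x hx]
    omega
  haveI := (S1055.result ha).1
  rcases ρ.normal_ker.eq_bot_or_eq_top with h | h
  · exact (MonoidHom.ker_eq_bot_iff ρ).1 h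
  · exfalso
    obtain ⟨g, hg⟩ := hrho 0 (by norm_num) (1 : F)
    rw [MonoidHom.mem_ker.1 (h ▸ Subgroup.mem_top g)] at hg
    have := congrFun (congrFun hg 3) 2
    simp [rM, rootMat, repO, Mono.val] at this

end Cfsg.Agent.G2Spec
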