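import Cfsg.Agent.G2Spec.Exist

/-!
# The maximal element orders of the Chevalley group of type G2
-/

set_option autoImplicit false

namespace Cfsg.Agent.G2Spec

open Cfsg.Lie Matrix

theorem maximal_eq {R C : Set ℕ} (hb : ∀ n ∈ R, ∃ c ∈ C, n ∣ c) (hr : C ⊆ R)
    (hanti : ∀ c ∈ C, ∀ d ∈ C, c ∣ d → c = d) :
    {n | n ∈ R ∧ ∀ m ∈ R, n ∣ m → m = n} = C := by
  ext n
  refine ⟨fun ⟨hn, hmax⟩ => ?_, fun hn => ⟨hr hn, fun m hm hnm => ?_⟩⟩
  · obtain ⟨c, hc, hnc⟩ := hb n hn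
    rwa [← hmax c (hr hc) hnc]
  · obtain ⟨c, hc, hmc⟩ := hb m hm
    have e := hanti n hn c hc (hnm.trans hmc)
    exact Nat.dvd_antisymm (e ▸ hmc) hnm

theorem lt_two_mul_of_dvd {x y : ℕ} (h : x ∣ y) (hne : y ≠ 0) (hlt : y < 2 * x) : y = x := by
  obtain ⟨k, rfl⟩ := h
  have : k < 2 := by
    by_contra hk
    exact absurd hlt (not_lt.2 (by rw [mul_comm 2]; exact Nat.mul_le_mul_left x (not_lt.1 hk)))
  interval_cases k
  · simp at hne
  · simp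

/-- No candidate divides another. -/
theorem antichain {p q : ℕ} (hp : p.Prime) (hp2 : p ≠ 2) (hpq : p ∣ q) (hq : Odd q) (h5 : 5 ≤ q)
    (Q : Prop) (hQ : Q → p = 3 ∨ p = 5) {c d : ℕ}
    (hc : c = p * (q + 1) ∨ c = p * (q - 1) ∨ c = q ^ 2 - 1 ∨ c = q ^ 2 + q + 1 ∨
      c = q ^ 2 - q + 1 ∨ (Q ∧ c = p ^ 2))
    (hd : d = p * (q + 1) ∨ d = p * (q - 1) ∨ d = q ^ 2 - 1 ∨ d = q ^ 2 + q + 1 ∨
      d = q ^ 2 - q + 1 ∨ (Q ∧ d = p ^ 2))
    (hcd : c ∣ d) : c = d := by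
  obtain ⟨k, hk⟩ := hq
  have hle : q ≤ q ^ 2 := Nat.le_self_pow (by norm_num) q
  have hp3 : 3 ≤ p := by have := hp.two_le; omega
  have hpq' : p ≤ q := Nat.le_of_dvd (by omega) hpq
  have hq2 : 5 * q ≤ q ^ 2 := by rw [sq]; exact Nat.mul_le_mul_right q h5
  -- `p` divides none of the torus orders
  have np : ∀ x, (x = q ^ 2 - 1 ∨ x = q ^ 2 + q + 1 ∨ x = q ^ 2 - q + 1) → ¬ p ∣ x := by
    intro x hx hd
    have h2 : p ∣ q ^ 2 := dvd_pow hpq (by norm_num)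
    rcases hx with rfl | rfl | rfl
    · have := Nat.dvd_sub h2 hd
      rw [show q ^ 2 - (q ^ 2 - 1) = 1 by omega] at this
      exact hp.not_dvd_one this
    · exact hp.not_dvd_one ((Nat.dvd_add_right (dvd_add h2 hpq)).1 hd)
    · exact hp.not_dvd_one ((Nat.dvd_add_right (Nat.dvd_sub h2 hpq)).1 hd)
  -- the odd ones are not divisible by two
  have n2 : ∀ x, (x = q ^ 2 + q + 1 ∨ x = q ^ 2 - q + 1) → ¬ 2 ∣ x := by
    intro x hx hd
    have h2 : 2 ∣ q * (q + 1) := dvd_mul_of_dvd_right ⟨k + 1, by omega⟩ _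
    have h2' : 2 ∣ q * (q - 1) := dvd_mul_of_dvd_right ⟨k, by omega⟩ _
    rcases hx with rfl | rfl
    · rw [show q ^ 2 + q + 1 = q * (q + 1) + 1 by ring] at hd
      omega
    · rw [show q ^ 2 - q = q * (q - 1) by rw [Nat.mul_sub, mul_one, sq]] at hd
      omega
  have even : ∀ x, (x = p * (q + 1) ∨ x = p * (q - 1) ∨ x = q ^ 2 - 1) → 2 ∣ x := by
    intro x hx
    rcases hx with rfl | rfl | rfl
    · exact dvd_mul_of_dvd_right ⟨k + 1, by omega⟩ _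
    · exact dvd_mul_of_dvd_right ⟨k, by omega⟩ _
    · obtain ⟨t, ht⟩ : ∃ t, q ^ 2 = 2 * t + 1 := ⟨2 * k * k + 2 * k, by rw [hk]; ring⟩
      exact ⟨t, by omega⟩
  have hA : ∀ x, x ∣ q + 1 → x ∣ q - 1 → x ≤ 2 := fun x h1 h2 => by
    have := Nat.dvd_sub h1 h2
    rw [show q + 1 - (q - 1) = 2 by omega] at this
    exact Nat.le_of_dvd (by norm_num) this
  -- comparisons between torus orders
  have sq1 : ∀ x, (x = q ^ 2 + q + 1 ∨ x = q ^ 2 - q + 1) → x ∣ q ^ 2 - 1 → False := by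
    intro x hx h
    have := lt_two_mul_of_dvd h (by omega) (by omega)
    omega
  have sq2 : q ^ 2 - q + 1 ∣ q ^ 2 + q + 1 → False := fun h => by
    have := lt_two_mul_of_dvd h (by omega) (by omega)
    omega
  have sq3 : q ^ 2 + q + 1 ∣ q ^ 2 - q + 1 → False := fun h => by
    have := Nat.le_of_dvd (by omega) h
    omega
  have big : ∀ x, (x = q ^ 2 - 1 ∨ x = q ^ 2 + q + 1 ∨ x = q ^ 2 - q + 1) → ∀ m, q + 1 < x ∧
      (x ∣ p * m → x ∣ m) := fun x hx m =>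
    ⟨by omega, fun h => ((hp.coprime_iff_not_dvd.2 (np x hx)).symm).dvd_of_dvd_mul_left h⟩
  have psq : ∀ x, x ∣ p ^ 2 → 2 ∣ x ∨ (¬ p ∣ x ∧ 1 < x) → False := by
    intro x hx h
    rcases h with h | ⟨h, h1⟩
    · have := (Nat.prime_dvd_prime_iff_eq Nat.prime_two hp).1 (Nat.prime_two.dvd_of_dvd_pow (h.trans hx))
      omega
    · obtain ⟨i, hi, rfl⟩ := (Nat.dvd_prime_pow hp).1 hx
      rcases Nat.eq_zero_or_pos i with rfl | hi
      · simp at h1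
      · exact h (dvd_pow_self p hi.ne')
  rcases hc with rfl | rfl | rfl | rfl | rfl | ⟨hQc, rfl⟩ <;>
    rcases hd with rfl | rfl | rfl | rfl | rfl | ⟨hQd, rfl⟩
  -- c = p(q+1)
  · rfl
  · exfalso
    have := hA _ dvd_rfl ((Nat.mul_dvd_mul_iff_left hp.pos).1 hcd); omega
  · exact absurd (dvd_of_mul_right_dvd hcd) (np _ (Or.inl rfl))
  · exact absurd (dvd_of_mul_right_dvd hcd) (np _ (Or.inr (Or.inl rfl)))
  · exact absurd (dvd_of_mul_right_dvd hcd) (np _ (Or.inr (Or.inr rfl)))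
  · exact (psq _ hcd (Or.inl (even _ (Or.inl rfl)))).elim
  -- c = p(q-1)
  · exfalso
    have := hA _ ((Nat.mul_dvd_mul_iff_left hp.pos).1 hcd) dvd_rfl; omega
  · rfl
  · exact absurd (dvd_of_mul_right_dvd hcd) (np _ (Or.inl rfl))
  · exact absurd (dvd_of_mul_right_dvd hcd) (np _ (Or.inr (Or.inl rfl)))
  · exact absurd (dvd_of_mul_right_dvd hcd) (np _ (Or.inr (Or.inr rfl)))
  · exact (psq _ hcd (Or.inl (even _ (Or.inr (Or.inl rfl))))).elim
  -- c = q²-1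
  · exfalso
    obtain ⟨hb, hd⟩ := big _ (Or.inl rfl) (q + 1)
    have := Nat.le_of_dvd (by omega) (hd hcd); omega
  · exfalso
    obtain ⟨hb, hd⟩ := big _ (Or.inl rfl) (q - 1)
    have := Nat.le_of_dvd (by omega) (hd hcd); omega
  · rfl
  · exact absurd ((even _ (Or.inr (Or.inr rfl))).trans hcd) (n2 _ (Or.inl rfl))
  · exact absurd ((even _ (Or.inr (Or.inr rfl))).trans hcd) (n2 _ (Or.inr rfl))
  · exact (psq _ hcd (Or.inl (even _ (Or.inr (Or.inr rfl))))).elim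
  -- c = q²+q+1
  · exfalso
    obtain ⟨hb, hd⟩ := big _ (Or.inr (Or.inl rfl)) (q + 1)
    have := Nat.le_of_dvd (by omega) (hd hcd); omega
  · exfalso
    obtain ⟨hb, hd⟩ := big _ (Or.inr (Or.inl rfl)) (q - 1)
    have := Nat.le_of_dvd (by omega) (hd hcd); omega
  · exact (sq1 _ (Or.inl rfl) hcd).elim
  · rfl
  · exact (sq3 hcd).elim
  · exact (psq _ hcd (Or.inr ⟨np _ (Or.inr (Or.inl rfl)), by omega⟩)).elim
  -- c = q²-q+1
  · exfalso
    obtain ⟨hb, hd⟩ := big _ (Or.inr (Or.inr rfl)) (q + 1)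
    have := Nat.le_of_dvd (by omega) (hd hcd); omega
  · exfalso
    obtain ⟨hb, hd⟩ := big _ (Or.inr (Or.inr rfl)) (q - 1)
    have := Nat.le_of_dvd (by omega) (hd hcd); omega
  · exact (sq1 _ (Or.inr rfl) hcd).elim
  · exact (sq2 hcd).elim
  · rfl
  · exact (psq _ hcd (Or.inr ⟨np _ (Or.inr (Or.inr rfl)), by omega⟩)).elim
  -- c = p²
  all_goals have hpc : p ∣ p ^ 2 := dvd_pow_self p two_ne_zero
  · exfalso
    have h : p ∣ q + 1 := (Nat.mul_dvd_mul_iff_left hp.pos).1 (by rwa [sq] at hcd)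
    exact hp.not_dvd_one ((Nat.dvd_add_right hpq).1 h)
  · exfalso
    have h : p ∣ q - 1 := (Nat.mul_dvd_mul_iff_left hp.pos).1 (by rwa [sq] at hcd)
    have := Nat.dvd_sub hpq h
    rw [show q - (q - 1) = 1 by omega] at this
    exact hp.not_dvd_one this
  · exact absurd (hpc.trans hcd) (np _ (Or.inl rfl))
  · exact absurd (hpc.trans hcd) (np _ (Or.inr (Or.inl rfl)))
  · exact absurd (hpc.trans hcd) (np _ (Or.inr (Or.inr rfl)))
  · rfl

/-- The maximal element orders. -/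
theorem main {F : Type*} [Field F] [Fintype F] (p a : ℕ) (hp : p.Prime) (hp2 : p ≠ 2) (ha : 1 ≤ a)
    (hF : Fintype.card F = p ^ a) (hq5 : 5 ≤ Fintype.card F) :
    {n : ℕ | n ∈ Set.range (orderOf : ↥(chevG2.group F) → ℕ) ∧
      ∀ m ∈ Set.range (orderOf : ↥(chevG2.group F) → ℕ), n ∣ m → m = n} =
      ({p * (p ^ a + 1), p * (p ^ a - 1), p ^ (2 * a) - 1, p ^ (2 * a) + p ^ a + 1,
        p ^ (2 * a) - p ^ a + 1} : Set ℕ) ∪ (if p = 3 ∨ p = 5 then ({p ^ 2} : Set ℕ) else ∅) := by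
  classical
  haveI : CharP F p := by haveI := Fact.mk hp; exact charP_of_card_eq_prime_pow hF
  rw [mul_comm 2 a, pow_mul]
  have hmem : ∀ n, (n ∈ ({p * (p ^ a + 1), p * (p ^ a - 1), (p ^ a) ^ 2 - 1, (p ^ a) ^ 2 + p ^ a + 1,
        (p ^ a) ^ 2 - p ^ a + 1} : Set ℕ) ∪ (if p = 3 ∨ p = 5 then ({p ^ 2} : Set ℕ) else ∅)) ↔
      (n = p * (p ^ a + 1) ∨ n = p * (p ^ a - 1) ∨ n = (p ^ a) ^ 2 - 1 ∨
        n = (p ^ a) ^ 2 + p ^ a + 1 ∨ n = (p ^ a) ^ 2 - p ^ a + 1 ∨ ((p = 3 ∨ p = 5) ∧ n = p ^ 2)) := by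
    intro n
    by_cases h : p = 3 ∨ p = 5 <;>
      simp only [h, if_true, if_false, Set.mem_union, Set.mem_insert_iff, Set.mem_singleton_iff,
        Set.mem_empty_iff_false, true_and, false_and, or_false, or_assoc]
  refine maximal_eq ?_ ?_ ?_
  · rintro n ⟨x, rfl⟩
    obtain ⟨ρ, hρ, -⟩ := exists_rho (F := F) (by omega)
    have he : orderOf x = orderOf ((ρ x : GL (Fin 8) F)) :=
      (orderOf_injective ((G2 F).subtype.comp ρ) ((G2 F).subtype_injective.comp hρ) x).symm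
    rw [he]
    rcases orderOf_dvd hp hp2 hF (ρ x).2 with h | h | h | h | h | ⟨hQ, h⟩
    · exact ⟨_, (hmem _).2 (Or.inr (Or.inl rfl)), h⟩
    · exact ⟨_, (hmem _).2 (Or.inl rfl), h⟩
    · exact ⟨_, (hmem _).2 (Or.inr (Or.inr (Or.inl rfl))), h⟩
    · exact ⟨_, (hmem _).2 (Or.inr (Or.inr (Or.inr (Or.inl rfl)))), h⟩
    · exact ⟨_, (hmem _).2 (Or.inr (Or.inr (Or.inr (Or.inr (Or.inl rfl))))), h⟩
    · exact ⟨_, (hmem _).2 (Or.inr (Or.inr (Or.inr (Or.inr (Or.inr ⟨hQ, rfl⟩))))), h⟩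
  · intro n hn
    have hE := exists_orders hp ha hF (by omega)
    rcases (hmem n).1 hn with rfl | rfl | rfl | rfl | rfl | ⟨hQ, rfl⟩
    · exact hE _ (by simp)
    · exact hE _ (by simp)
    · exact hE _ (by simp)
    · exact hE _ (by simp)
    · exact exists_order_six hF (by omega)
    · exact exists_order_sq hQ (by omega)
  · intro c hc d hd h
    exact antichain hp hp2 (dvd_pow_self p (by omega)) ((hp.odd_of_ne_two hp2).pow) (by omega) _
      id ((hmem c).1 hc) ((hmem d).1 hd) h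

end Cfsg.Agent.G2Spec
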