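import Cfsg.Agent.G2Spec.Rep

/-!
# Trace, norm, and fixed idempotents of semisimple automorphisms of the octonions
-/

set_option autoImplicit false

namespace Cfsg.Agent.G2Spec

open Cfsg.Lie Matrix

variable {K : Type*} [Field K]

/-- The trace. -/
def trO (x : Fin 8 → K) : K := x 0 + x 7

/-- The norm. -/
def nO (x : Fin 8 → K) : K := x 0 * x 7 - (x 1 * x 4 + x 2 * x 5 + x 3 * x 6)

/-- The unit. -/
def oneO (K : Type*) [Field K] : Fin 8 → K := ![1, 0, 0, 0, 0, 0, 0, 1]

theorem trO_add (x y : Fin 8 → K) : trO (x + y) = trO x + trO y := by simp [trO]; ring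

theorem trO_smul (c : K) (x : Fin 8 → K) : trO (c • x) = c * trO x := by simp [trO]; ring

theorem trO_one : trO (oneO K) = 2 := by simp [trO, oneO]; norm_num

theorem mul_self_eq (x : Fin 8 → K) : zornMul x x = trO x • x - nO x • oneO K := by
  funext i
  fin_cases i <;> simp [zornMul, trO, nO, oneO, zA, zB, dot3, cross3] <;> ring

theorem one_mul_eq (x : Fin 8 → K) : zornMul (oneO K) x = x := by
  funext i
  fin_cases i <;> simp [zornMul, oneO, zA, zB, dot3, cross3]

theorem mul_one_eq (x : Fin 8 → K) : zornMul x (oneO K) = x := by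
  funext i
  fin_cases i <;> simp [zornMul, oneO, zA, zB, dot3, cross3]

theorem nO_mul (x y : Fin 8 → K) : nO (zornMul x y) = nO x * nO y := by
  simp [zornMul, nO, zA, zB, dot3, cross3]; ring

theorem mul_smul_right (c : K) (x y : Fin 8 → K) : zornMul x (c • y) = c • zornMul x y := by
  funext i
  fin_cases i <;> simp [zornMul, zA, zB, dot3, cross3] <;> ring

theorem mul_smul_left (c : K) (x y : Fin 8 → K) : zornMul (c • x) y = c • zornMul x y := by
  funext i
  fin_cases i <;> simp [zornMul, zA, zB, dot3, cross3] <;> ring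

theorem mul_add_right (x y z : Fin 8 → K) : zornMul x (y + z) = zornMul x y + zornMul x z := by
  funext i
  fin_cases i <;> simp [zornMul, zA, zB, dot3, cross3] <;> ring

/-- The pairing of a vector with the trace form is faithful. -/
theorem exists_tr_mul_ne {x : Fin 8 → K} (hx : x ≠ 0) :
    ∃ i, trO (zornMul x (Pi.single i 1)) ≠ 0 := by
  by_contra hc
  push Not at hc
  refine hx (funext fun i => ?_)
  have h0 := hc 0; have h1 := hc 1; have h2 := hc 2; have h3 := hc 3
  have h4 := hc 4; have h5 := hc 5; have h6 := hc 6; have h7 := hc 7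
  simp [trO, zornMul, zA, zB, dot3, cross3, Pi.single_apply] at h0 h1 h2 h3 h4 h5 h6 h7
  fin_cases i <;> assumption

variable {S : Matrix (Fin 8) (Fin 8) K}

theorem endo_one (hS : IsEndo S) (hu : IsUnit S) : S *ᵥ oneO K = oneO K := by
  obtain ⟨x, hx⟩ := Matrix.mulVec_surjective_iff_isUnit.2 hu (oneO K)
  have h := hS (oneO K) x
  rw [one_mul_eq, hx, mul_one_eq] at h
  exact h.symm

theorem endo_trO (hS : IsEndo S) (hu : IsUnit S) (x : Fin 8 → K) : trO (S *ᵥ x) = trO x := by
  by_cases hx : ∃ c : K, S *ᵥ x = c • oneO K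
  · obtain ⟨c, hc⟩ := hx
    have : x = c • oneO K := Matrix.mulVec_injective_iff_isUnit.2 hu
      (by rw [hc, Matrix.mulVec_smul, endo_one hS hu])
    rw [this, Matrix.mulVec_smul, endo_one hS hu]
  · have h := hS x x
    rw [mul_self_eq, mul_self_eq, Matrix.mulVec_sub, Matrix.mulVec_smul, Matrix.mulVec_smul,
      endo_one hS hu] at h
    by_contra hne
    refine hx ⟨(nO x - nO (S *ᵥ x)) / (trO x - trO (S *ᵥ x)), ?_⟩
    have hne' : trO x - trO (S *ᵥ x) ≠ 0 := sub_ne_zero.2 (Ne.symm hne)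
    funext i
    have hi := congrFun h i
    simp only [Pi.sub_apply, Pi.smul_apply, smul_eq_mul] at hi ⊢
    field_simp
    linear_combination hi

variable [IsAlgClosed K]

theorem idem_of_fixed (hS : IsEndo S) (hu : IsUnit S) (h2 : (2 : K) ≠ 0) {z : Fin 8 → K}
    (hz : S *ᵥ z = z) (htr : trO z = 0) (hn : nO z ≠ 0) :
    ∃ e, S *ᵥ e = e ∧ trO e = 1 ∧ nO e = 0 := by
  obtain ⟨s, hs⟩ := IsAlgClosed.exists_pow_nat_eq (-nO z) (show 0 < 2 by norm_num)
  have hs0 : s ≠ 0 := fun h => hn (by simpa [h] using hs.symm)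
  refine ⟨(1 / 2 : K) • (oneO K + (1 / s) • z), ?_, ?_, ?_⟩
  · rw [Matrix.mulVec_smul, Matrix.mulVec_add, Matrix.mulVec_smul, hz, endo_one hS hu]
  · rw [trO_smul, trO_add, trO_smul, htr, trO_one]
    field_simp
    ring
  · simp only [nO, trO, Pi.smul_apply, Pi.add_apply, smul_eq_mul] at htr hs ⊢
    simp only [show oneO K 0 = 1 from rfl, show oneO K 1 = 0 from rfl, show oneO K 2 = 0 from rfl,
      show oneO K 3 = 0 from rfl, show oneO K 4 = 0 from rfl, show oneO K 5 = 0 from rfl,
      show oneO K 6 = 0 from rfl, show oneO K 7 = 1 from rfl]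
    field_simp
    grobner

theorem idem_of_involution (hS : IsEndo S) (hu : IsUnit S) (h2 : (2 : K) ≠ 0)
    (h : S * S = 1) : ∃ e, S *ᵥ e = e ∧ trO e = 1 ∧ nO e = 0 := by
  have fix : ∀ x, S *ᵥ (x + S *ᵥ x) = x + S *ᵥ x := fun x => by
    rw [Matrix.mulVec_add, Matrix.mulVec_mulVec, h, Matrix.one_mulVec, add_comm]
  obtain ⟨z, hz, htz, hz0⟩ : ∃ z, S *ᵥ z = z ∧ trO z = 0 ∧ z ≠ 0 := by
    by_contra hc
    push Not at hc
    have key : ∀ x, trO x = 0 → S *ᵥ x = -x := fun x hx => by
      have := hc _ (fix x) (by rw [trO_add, endo_trO hS hu, hx, add_zero])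
      exact eq_neg_of_add_eq_zero_right this
    have h3 := hS (Pi.single 1 1) (Pi.single 2 1)
    have e : zornMul (Pi.single 1 1 : Fin 8 → K) (Pi.single 2 1) = Pi.single 6 1 := by
      funext i
      fin_cases i <;> simp [zornMul, zA, zB, dot3, cross3, Pi.single_apply]
    rw [key (Pi.single 1 1) (by simp [trO]), key (Pi.single 2 1) (by simp [trO]), e,
      key (Pi.single 6 1) (by simp [trO]),
      show -(Pi.single 1 1 : Fin 8 → K) = (-1 : K) • Pi.single 1 1 by simp,
      show -(Pi.single 2 1 : Fin 8 → K) = (-1 : K) • Pi.single 2 1 by simp,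
      mul_smul_left, mul_smul_right, e] at h3
    have := congrFun h3 6
    simp at this
    exact h2 (by linear_combination (-1 : K) * this)
  by_cases hn : nO z ≠ 0
  · exact idem_of_fixed hS hu h2 hz htz hn
  rw [not_not] at hn
  obtain ⟨i, hi⟩ := exists_tr_mul_ne hz0
  set w := Pi.single i (1 : K) + S *ᵥ Pi.single i (1 : K) with hw
  have htw : trO (zornMul z w) = 2 * trO (zornMul z (Pi.single i 1)) := by
    rw [hw, mul_add_right, trO_add]
    have : trO (zornMul z (S *ᵥ Pi.single i 1)) = trO (zornMul z (Pi.single i 1)) := by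
      conv_lhs => rw [← hz, ← hS z, endo_trO hS hu]
    rw [this, two_mul]
  set y := (2 : K) • w + (-trO w) • oneO K with hy
  have hyf : S *ᵥ y = y := by
    rw [hy, Matrix.mulVec_add, Matrix.mulVec_smul, Matrix.mulVec_smul, hw, fix, endo_one hS hu]
  have hyt : trO y = 0 := by rw [hy, trO_add, trO_smul, trO_smul, trO_one]; ring
  have hzy : trO (zornMul z y) = 4 * trO (zornMul z (Pi.single i 1)) := by
    rw [hy, mul_add_right, mul_smul_right, mul_smul_right, trO_add, trO_smul, trO_smul, mul_one_eq,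
      htz, htw]
    ring
  have h4 : trO (zornMul z y) ≠ 0 := by
    rw [hzy]
    exact mul_ne_zero (by simpa [show (4 : K) = 2 * 2 by norm_num] using h2) hi
  have hexp : ∀ c : K, nO (c • z + y) = c ^ 2 * nO z - c * trO (zornMul z y) + nO y := by
    intro c
    simp [nO, trO, zornMul, zA, zB, dot3, cross3] at htz hyt ⊢
    grobner
  have hf : ∀ c : K, S *ᵥ (c • z + y) = c • z + y ∧ trO (c • z + y) = 0 := fun c => by
    rw [Matrix.mulVec_add, Matrix.mulVec_smul, hz, hyf, trO_add, trO_smul, htz, hyt]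
    simp
  by_cases hy0 : nO y ≠ 0
  · exact idem_of_fixed hS hu h2 hyf hyt hy0
  rw [not_not] at hy0
  refine idem_of_fixed hS hu h2 (hf 1).1 (hf 1).2 ?_
  rw [hexp, hn, hy0]
  simpa using h4

theorem idem_of_eigen (hS : IsEndo S) (hu : IsUnit S)
    (hspan : Submodule.span K {v | ∃ μ : K, S *ᵥ v = μ • v} = ⊤) {x : Fin 8 → K} (hx : x ≠ 0)
    {l : K} (hl : S *ᵥ x = l • x) (hl2 : l ^ 2 ≠ 1) :
    ∃ e, S *ᵥ e = e ∧ trO e = 1 ∧ nO e = 0 := by
  have hl0 : l ≠ 0 := fun h => hx (Matrix.mulVec_injective_iff_isUnit.2 hu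
    (by rw [hl, h, zero_smul, Matrix.mulVec_zero]))
  have htx : trO x = 0 := by
    have := endo_trO hS hu x
    rw [hl, trO_smul] at this
    by_contra h
    exact hl2 (by rw [(mul_eq_right₀ h).1 this, one_pow])
  have hnx : nO x = 0 := by
    have h := hS x x
    rw [hl, mul_smul_left, mul_smul_right, mul_self_eq, htx, zero_smul, zero_sub, Matrix.mulVec_neg,
      Matrix.mulVec_smul, endo_one hS hu] at h
    have := congrFun h 0
    simp [oneO] at this
    by_contra hn
    exact hl2 (mul_right_cancel₀ hn (by linear_combination -this))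
  obtain ⟨v, ⟨μ, hμ⟩, hv⟩ : ∃ v ∈ {v | ∃ μ : K, S *ᵥ v = μ • v}, trO (zornMul x v) ≠ 0 := by
    by_contra hc
    push Not at hc
    obtain ⟨i, hi⟩ := exists_tr_mul_ne hx
    refine hi ?_
    have hmem : (Pi.single i 1 : Fin 8 → K) ∈ Submodule.span K {v | ∃ μ : K, S *ᵥ v = μ • v} := by
      rw [hspan]; trivial
    revert hmem
    generalize (Pi.single i 1 : Fin 8 → K) = u
    intro hmem
    induction hmem using Submodule.span_induction with
    | mem v hv => exact hc v hv
    | zero =>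
      have : zornMul x 0 = 0 := by simpa using mul_smul_right (0 : K) x 0
      rw [this]; simp [trO]
    | add a b _ _ ha hb => rw [mul_add_right, trO_add, ha, hb, add_zero]
    | smul c a _ ha => rw [mul_smul_right, trO_smul, ha, mul_zero]
  have hlm : l * μ = 1 := by
    have h := endo_trO hS hu (zornMul x v)
    rw [hS, hl, hμ, mul_smul_left, mul_smul_right, trO_smul, trO_smul, ← mul_assoc] at h
    exact (mul_eq_right₀ hv).1 h
  refine ⟨(trO (zornMul x v))⁻¹ • zornMul x v, ?_, ?_, ?_⟩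
  · rw [Matrix.mulVec_smul, hS, hl, hμ, mul_smul_left, mul_smul_right, smul_smul l μ, hlm, one_smul]
  · rw [trO_smul, inv_mul_cancel₀ hv]
  · have : nO (zornMul x v) = 0 := by rw [nO_mul, hnx, zero_mul]
    simp only [nO, Pi.smul_apply, smul_eq_mul] at this ⊢
    linear_combination ((trO (zornMul x v))⁻¹ ^ 2) * this

theorem span_eigen {n : ℕ} {A : Matrix (Fin n) (Fin n) K} {m : ℕ} (hm : (m : K) ≠ 0)
    (hA : A ^ m = 1) : Submodule.span K {v | ∃ μ : K, A *ᵥ v = μ • v} = ⊤ := by
  have hss : Module.End.IsSemisimple (Matrix.toLinAlgEquiv' A) := by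
    refine Module.End.isSemisimple_of_squarefree_aeval_eq_zero
      (Polynomial.X_pow_sub_one_separable_iff.2 hm).squarefree ?_
    rw [map_sub, map_pow, Polynomial.aeval_X, map_one, ← map_pow, hA, map_one, sub_self]
  rw [eq_top_iff, ← hss.iSup_eigenspace_eq_top]
  refine iSup_le fun μ v hv => Submodule.subset_span ⟨μ, ?_⟩
  exact (Module.End.mem_eigenspace_iff.1 hv)

theorem exists_idem (hS : IsEndo S) (h2 : (2 : K) ≠ 0) {m : ℕ} (hm : (m : K) ≠ 0)
    (hSm : S ^ m = 1) : ∃ e, S *ᵥ e = e ∧ trO e = 1 ∧ nO e = 0 := by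
  have hm0 : m ≠ 0 := fun h => hm (by rw [h, Nat.cast_zero])
  have hu : IsUnit S := IsUnit.of_pow_eq_one hSm hm0
  have hspan := span_eigen hm hSm
  by_cases hc : ∀ v : Fin 8 → K, ∀ μ : K, S *ᵥ v = μ • v → v = 0 ∨ μ ^ 2 = 1
  · refine idem_of_involution hS hu h2 (Matrix.ext_of_mulVec_single fun i => ?_)
    rw [Matrix.one_mulVec]
    have hmem : (Pi.single i 1 : Fin 8 → K) ∈ Submodule.span K {v | ∃ μ : K, S *ᵥ v = μ • v} := by
      rw [hspan]; trivial
    revert hmem
    generalize (Pi.single i 1 : Fin 8 → K) = u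
    intro hmem
    induction hmem using Submodule.span_induction with
    | mem v hv =>
      obtain ⟨μ, hμ⟩ := hv
      rcases hc v μ hμ with rfl | h
      · simp
      · rw [← Matrix.mulVec_mulVec, hμ, Matrix.mulVec_smul, hμ, smul_smul, ← sq, h, one_smul]
    | zero => simp
    | add a b _ _ ha hb => rw [Matrix.mulVec_add, ha, hb]
    | smul c a _ ha => rw [Matrix.mulVec_smul, ha]
  · push Not at hc
    obtain ⟨v, μ, hμ, hv, h⟩ := hc
    exact idem_of_eigen hS hu hspan hv hμ h

end Cfsg.Agent.G2Spec
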