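import Cfsg.Agent.G2Spec.Bound

/-!
# Element orders of `G2 F`, upper bound
-/

set_option autoImplicit false

namespace Cfsg.Agent.G2Spec

open Cfsg.Lie Matrix

section
variable {K : Type*} [Field K] {p : ℕ} [Fact p.Prime] [CharP K p]

theorem commute_entry {u : Matrix (Fin 8) (Fin 8) K} {D : Fin 8 → K}
    (hc : u * Matrix.diagonal D = Matrix.diagonal D * u) {i j : Fin 8} (h : D i ≠ D j) :
    u i j = 0 := by
  have e := congrFun (congrFun hc i) j
  rw [Matrix.mul_diagonal, Matrix.diagonal_mul] at e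
  have : u i j * (D j - D i) = 0 := by linear_combination e
  exact (mul_eq_zero.1 this).resolve_right (sub_ne_zero.2 (Ne.symm h))

theorem vals_eq (d : Fin 3 → K) : Finset.univ.val.map (dvec d) = vals d := by
  rw [Fin.univ_val_map]
  simp [List.ofFn_succ, dvec, vals]

theorem roots_prod_fun {n : ℕ} (D : Fin n → K) :
    (∏ i, (Polynomial.X - Polynomial.C (D i))).roots = Finset.univ.val.map D := by
  rw [Finset.prod_eq_multiset_prod]
  conv_rhs => rw [← Polynomial.roots_multiset_prod_X_sub_C (Finset.univ.val.map D), Multiset.map_map]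
  rfl

theorem exists_blk_of_commute (h2 : (2 : K) ≠ 0) (hp : Odd p) {u : GL (Fin 8) K} (hu : u ∈ G2 K)
    {e : ℕ} (hue : u ^ p ^ e = 1) {d : Fin 3 → K} (h1 : ∀ i, d i ≠ 1)
    (hc : (u : Matrix (Fin 8) (Fin 8) K) * Matrix.diagonal (dvec d) =
      Matrix.diagonal (dvec d) * (u : Matrix (Fin 8) (Fin 8) K)) :
    ∃ A : Matrix (Fin 3) (Fin 3) K, (u : Matrix (Fin 8) (Fin 8) K) = blkM A ∧ A ^ p ^ e = 1 := by
  have hS := mem_endo hu
  have hcol : ∀ i : Fin 8, i ≠ 0 → i ≠ 7 → (u : Matrix (Fin 8) (Fin 8) K) i 0 = 0 := by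
    intro i i0 i7
    refine commute_entry hc ?_
    have := h1 0; have := h1 1; have := h1 2
    fin_cases i <;> simp_all [dvec, inv_eq_one]
  set v := (u : Matrix (Fin 8) (Fin 8) K) *ᵥ e0 K with hv
  have hvi : ∀ i, v i = (u : Matrix (Fin 8) (Fin 8) K) i 0 := fun i => by
    rw [hv, e0, Matrix.mulVec_single_one]; rfl
  have hvec : v = vec8 (v 0) 0 0 (v 7) := by
    funext i
    fin_cases i <;> first
      | rfl
      | exact (hvi _).trans (hcol _ (by decide) (by decide))
  have hee : zornMul (e0 K) (e0 K) = e0 K := by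
    funext i
    fin_cases i <;> simp [zornMul, e0, zA, zB, dot3, cross3, Pi.single_apply]
  have hvv : zornMul v v = v := by rw [hv, ← hS, hee]
  have ht : v 0 + v 7 = 1 := by
    have := endo_trO hS u.isUnit (e0 K)
    rw [← hv] at this
    simpa [trO, e0, Pi.single_apply] using this
  have h00 : v 0 * v 0 = v 0 := by
    have := congrFun hvv 0
    rw [hvec] at this
    simpa [zornMul, vec8, zA, zB, dot3, cross3] using this
  have he : (u : Matrix (Fin 8) (Fin 8) K) *ᵥ e0 K = e0 K := by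
    rcases eq_zero_or_one_of_sq_eq_self (show v 0 ^ 2 = v 0 by rw [sq]; exact h00) with h | h
    · have h7 : v 7 = 1 := by rwa [h, zero_add] at ht
      have hv7 : v = oneO K - e0 K := by
        rw [hvec, h, h7]
        funext i; fin_cases i <;> simp [vec8, oneO, e0, Pi.single_apply]
      have h2' : (u : Matrix (Fin 8) (Fin 8) K) *ᵥ v = e0 K := by
        rw [hv7, Matrix.mulVec_sub, endo_one hS u.isUnit, ← hv, hv7]; abel
      obtain ⟨k, hk⟩ := hp.pow (n := e)
      have hsq : ∀ n, ((u : Matrix (Fin 8) (Fin 8) K) ^ 2) ^ n *ᵥ e0 K = e0 K := by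
        intro n
        induction n with
        | zero => simp
        | succ n ih => rw [pow_succ, ← Matrix.mulVec_mulVec, sq, ← Matrix.mulVec_mulVec, ← hv, h2', ← sq, ih]
      have h1' : (u : Matrix (Fin 8) (Fin 8) K) ^ p ^ e = 1 := by
        rw [← Units.val_pow_eq_pow_val, hue, Units.val_one]
      rw [hk, pow_succ', pow_mul] at h1'
      have := congrArg (· *ᵥ e0 K) h1'
      simp only [← Matrix.mulVec_mulVec, hsq, Matrix.one_mulVec] at this
      rw [← hv] at this
      exact absurd (congrFun this 0) (by rw [h]; simp [e0])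
    · have h7 : v 7 = 0 := by rw [h] at ht; linear_combination ht
      rw [← hv, hvec, h, h7]
      funext i; fin_cases i <;> simp [vec8, e0, Pi.single_apply]
  obtain ⟨A, hA⟩ := eq_blkM hS u.isUnit he
  refine ⟨A.1, hA, ?_⟩
  have h : blkHom (A ^ p ^ e) = blkHom 1 := by
    rw [map_pow, map_one, show blkHom A = u from Units.ext hA.symm, hue]
  have := congrArg (fun B : SpecialLinearGroup (Fin 3) K => B.1) (blkHom_injective h)
  simpa using this

theorem eq_one_of_commute_distinct {A : Matrix (Fin 3) (Fin 3) K} {d : Fin 3 → K} {e : ℕ}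
    (hne : ∀ i j, i ≠ j → d i ≠ d j)
    (hc : blkM A * Matrix.diagonal (dvec d) = Matrix.diagonal (dvec d) * blkM A)
    (hA : A ^ p ^ e = 1) : A = 1 := by
  have hoff : ∀ i j, i ≠ j → A i j = 0 := fun i j hij => by
    rw [← blkM_posA A i j]
    exact commute_entry hc (by rw [dvec_posA, dvec_posA]; exact hne i j hij)
  have hAd : A = Matrix.diagonal fun i => A i i := by
    ext i j
    by_cases h : i = j
    · subst h; simp
    · simp [h, hoff i j h]
  rw [hAd, Matrix.diagonal_pow] at hA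
  rw [hAd]
  refine Matrix.diagonal_eq_one.2 (funext fun i => ?_)
  have h1 : A i i ^ p ^ e = 1 := congrFun (Matrix.diagonal_eq_one.1 hA) i
  have h2 : (A i i - 1) ^ p ^ e = 0 := by rw [sub_pow_char_pow, h1, one_pow, sub_self]
  exact sub_eq_zero.1 (pow_eq_zero_iff (pow_pos (Fact.out : p.Prime).pos e).ne' |>.1 h2)

end

/-- The candidates for the orders. -/
theorem orderOf_dvd {F : Type*} [Field F] [Fintype F] {p a : ℕ} (hp : p.Prime) (hp2 : p ≠ 2)
    (hF : Fintype.card F = p ^ a) {g : GL (Fin 8) F} (hg : g ∈ G2 F) :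
    orderOf g ∣ p * (p ^ a - 1) ∨ orderOf g ∣ p * (p ^ a + 1) ∨
      orderOf g ∣ (p ^ a) ^ 2 - 1 ∨ orderOf g ∣ (p ^ a) ^ 2 + p ^ a + 1 ∨
      orderOf g ∣ (p ^ a) ^ 2 - p ^ a + 1 ∨ ((p = 3 ∨ p = 5) ∧ orderOf g ∣ p ^ 2) := by
  classical
  haveI := Fact.mk hp
  haveI : CharP F p := charP_of_card_eq_prime_pow hF
  let K := AlgebraicClosure F
  haveI : CharP K p := charP_of_injective_algebraMap (algebraMap F K).injective p
  have h2 : (2 : K) ≠ 0 := by
    intro h2
    have hd : p ∣ 2 := (CharP.cast_eq_zero_iff K p 2).1 (by exact_mod_cast h2)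
    exact hp2 ((Nat.prime_dvd_prime_iff_eq hp Nat.prime_two).1 hd)
  have hodd : Odd p := hp.odd_of_ne_two hp2
  have hp3 : 3 ≤ p := by have := hp.two_le; omega
  let φ : GL (Fin 8) F →* GL (Fin 8) K := Matrix.GeneralLinearGroup.map (algebraMap F K)
  have hφ : Function.Injective φ := fun x y h => by
    refine Units.ext (Matrix.map_injective (algebraMap F K).injective ?_)
    exact congrArg Units.val h
  have hgK : φ g ∈ G2 K := val_mem_G2 ((mem_endo hg).map (algebraMap F K))
  obtain ⟨n, hn⟩ : ∃ n, n = orderOf g := ⟨_, rfl⟩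
  have hn0 : n ≠ 0 := hn ▸ (orderOf_pos g).ne'
  obtain ⟨e, m, hpm, hnm⟩ : ∃ e m, ¬ p ∣ m ∧ n = p ^ e * m :=
    ⟨n.factorization p, n / p ^ n.factorization p, Nat.not_dvd_ordCompl hp hn0,
      (Nat.ordProj_mul_ordCompl_eq_self n p).symm⟩
  have hm0 : (m : K) ≠ 0 := fun h => hpm ((CharP.cast_eq_zero_iff K p m).1 h)
  have hgn : φ g ^ n = 1 := by rw [← map_pow, hn, pow_orderOf_eq_one, map_one]
  obtain ⟨d, hd, hπ⟩ := exists_diag h2 (pow_mem hgK (p ^ e)) hm0
    (by rw [← pow_mul, ← hnm, hgn])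
  have hstab : ∀ π : Equiv.Perm (Fin 3), Stable (p ^ a) (d ∘ π) := by
    intro π
    obtain ⟨h, -, hs⟩ := hπ π
    have hprod : (d ∘ π) 0 * (d ∘ π) 1 * (d ∘ π) 2 = 1 := by
      have := Fintype.prod_equiv π (fun i => d (π i)) d fun _ => rfl
      rw [Fin.prod_univ_three, Fin.prod_univ_three, hd] at this
      exact this
    have hinj : Function.Injective (iterateFrobenius K p a) := (iterateFrobenius K p a).injective
    refine ⟨hodd.pow, fun x y hxy => hinj (by simpa [iterateFrobenius_def] using hxy), hprod, ?_⟩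
    rw [blkM_diagonal hprod] at hs
    have hchar : (Matrix.diagonal (dvec (d ∘ π))).charpoly =
        ((g ^ p ^ e : GL (Fin 8) F) : Matrix (Fin 8) (Fin 8) F).charpoly.map (algebraMap F K) := by
      rw [← hs, Units.val_mul, Units.val_mul, Matrix.coe_units_inv, Matrix.charpoly_units_conj,
        ← map_pow, ← Matrix.charpoly_map]
      rfl
    have hfix : (iterateFrobenius K p a).comp (algebraMap F K) = algebraMap F K := by
      refine RingHom.ext fun x => ?_
      rw [RingHom.comp_apply, iterateFrobenius_def, ← map_pow, ← hF, FiniteField.pow_card]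
    have h' := congrArg (Polynomial.map (iterateFrobenius K p a)) hchar
    rw [Polynomial.map_map, hfix, ← hchar, ← Matrix.charpoly_map,
      Matrix.diagonal_map (map_zero _)] at h'
    have h'' := congrArg Polynomial.roots h'
    rw [Matrix.charpoly_diagonal, Matrix.charpoly_diagonal, roots_prod_fun, roots_prod_fun,
      show (fun i => iterateFrobenius K p a (dvec (d ∘ π) i)) =
        iterateFrobenius K p a ∘ dvec (d ∘ π) from rfl, ← Multiset.map_map, vals_eq] at h''
    rw [show (fun x : K => x ^ p ^ a) = ⇑(iterateFrobenius K p a) from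
      funext fun x => (iterateFrobenius_def p a x).symm]
    exact h''
  -- the conjugated element, for a given ordering
  have conj : ∀ π : Equiv.Perm (Fin 3), ∃ u : GL (Fin 8) K, u ∈ G2 K ∧ u ^ p ^ e = 1 ∧
      (u : Matrix (Fin 8) (Fin 8) K) * Matrix.diagonal (dvec (d ∘ π)) =
        Matrix.diagonal (dvec (d ∘ π)) * (u : Matrix (Fin 8) (Fin 8) K) ∧
      ∀ k l : ℕ, (∀ i, (d ∘ π) i ^ k = 1) → u ^ l = 1 → orderOf g ∣ k * l := by
    intro π
    obtain ⟨h, hh, hs⟩ := hπ π
    rw [blkM_diagonal (hstab π).prod] at hs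
    set x := h * φ g * h⁻¹ with hx
    have hxo : orderOf x = n := by
      have h1 : orderOf (MulAut.conj h (φ g)) = orderOf (φ g) :=
        orderOf_injective (MulAut.conj h).toMonoidHom (MulAut.conj h).injective (φ g)
      rw [hx, ← MulAut.conj_apply, h1, orderOf_injective φ hφ, hn]
    have hxs : x ^ p ^ e = h * φ g ^ p ^ e * h⁻¹ := by rw [hx, conj_pow]
    refine ⟨x ^ m, pow_mem (mul_mem (mul_mem hh hgK) (inv_mem hh)) m, ?_, ?_, ?_⟩
    · rw [← pow_mul, mul_comm, ← hnm, ← hxo, pow_orderOf_eq_one]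
    · rw [← hs, ← hxs, ← Units.val_mul, ← Units.val_mul, ← pow_add, ← pow_add, add_comm]
    · intro k l hk hl
      have e1 : (x ^ p ^ e) ^ k = 1 := by
        refine Units.ext ?_
        rw [hxs, Units.val_pow_eq_pow_val, hs, Matrix.diagonal_pow, Units.val_one]
        refine Matrix.diagonal_eq_one.2 (funext fun i => ?_)
        have k0 := hk 0; have k1 := hk 1; have k2 := hk 2
        simp only [Function.comp_apply] at k0 k1 k2
        fin_cases i <;> simp [dvec, inv_pow, k0, k1, k2]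
      have d1 : p ^ e * m ∣ p ^ e * k := by
        rw [← hnm, ← hxo]; exact orderOf_dvd_of_pow_eq_one (by rw [pow_mul]; exact e1)
      have d2 : m * p ^ e ∣ m * l := by
        rw [mul_comm, ← hnm, ← hxo]; exact orderOf_dvd_of_pow_eq_one (by rw [pow_mul]; exact hl)
      rw [← hn, hnm, mul_comm]
      exact mul_dvd_mul (Nat.dvd_of_mul_dvd_mul_left (pow_pos hp.pos e) d1)
        (Nat.dvd_of_mul_dvd_mul_left (Nat.pos_of_ne_zero fun h => hpm (by rw [h]; exact dvd_zero p)) d2)
  by_cases hall : ∀ i, d i = 1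
  · obtain ⟨u, hu, hue, -, hfin⟩ := conj 1
    rcases unip_bound hp2 hu hue with h | ⟨h35, h⟩
    · exact Or.inl (dvd_trans (by simpa using hfin 1 p (by simp [hall]) h) (dvd_mul_right _ _))
    · exact Or.inr (Or.inr (Or.inr (Or.inr (Or.inr ⟨h35,
        by simpa using hfin 1 (p ^ 2) (by simp [hall]) h⟩))))
  have pm : ∀ {u : GL (Fin 8) K} {δ : Fin 3 → K},
      ((∀ i, δ i ^ (p ^ a - 1) = 1) ∨ ∀ i, δ i ^ (p ^ a + 1) = 1) → u ^ p = 1 →
      (∀ k l : ℕ, (∀ i, δ i ^ k = 1) → u ^ l = 1 → orderOf g ∣ k * l) →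
      orderOf g ∣ p * (p ^ a - 1) ∨ orderOf g ∣ p * (p ^ a + 1) := by
    rintro u δ hδ hup hfin
    refine hδ.imp (fun h => ?_) (fun h => ?_) <;> rw [mul_comm] <;> exact hfin _ _ h hup
  have fin : ∀ {A B C D E : Prop}, A ∨ B → A ∨ B ∨ C ∨ D ∨ E := fun h => h.imp id Or.inl
  by_cases hone : ∃ i, d i = 1
  · obtain ⟨i, hi⟩ := hone
    obtain ⟨π, hπ0⟩ : ∃ π : Equiv.Perm (Fin 3), π 0 = i := ⟨Equiv.swap 0 i, Equiv.swap_apply_left _ _⟩
    obtain ⟨u, hu, hue, huc, hfin⟩ := conj π
    have S := hstab π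
    have h0 : (d ∘ π) 0 = 1 := by simp [hπ0, hi]
    have h1 : (d ∘ π) 1 ≠ 1 := by
      intro h1
      refine hall fun j => ?_
      have h2' : (d ∘ π) 2 = 1 := by have := S.prod; rwa [h0, h1, one_mul, one_mul] at this
      obtain ⟨k, rfl⟩ := π.surjective j
      fin_cases k <;> assumption
    have h2' : (d ∘ π) 2 ≠ 1 := fun h2' => h1 (by
      have := S.prod; rwa [h0, h2', one_mul, mul_one] at this)
    refine fin (pm (S.case_one h0 h1) (unip_sgn h2 hu hue ?_) hfin)
    ext i j
    rw [Matrix.mul_diagonal, Matrix.diagonal_mul, mul_comm]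
    by_cases hij : sgnD K i = sgnD K j
    · rw [hij]
    · have : dvec (d ∘ π) i ≠ dvec (d ∘ π) j := by
        intro hd
        apply hij
        generalize hf : d ∘ π = f at hd h0 h1 h2'
        fin_cases i <;> fin_cases j <;>
          simp [dvec, sgnD, h0, h1, h2', Ne.symm h1, Ne.symm h2', inv_eq_one, eq_comm] at hd ⊢
      rw [commute_entry huc this, mul_zero, mul_zero]
  push Not at hone
  by_cases hrep : ∃ i j, i ≠ j ∧ d i = d j
  · obtain ⟨i, j, hij, hd'⟩ := hrep
    obtain ⟨π, hπ0, hπ1⟩ : ∃ π : Equiv.Perm (Fin 3), π 0 = i ∧ π 1 = j := by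
      exact (by decide : ∀ i j : Fin 3, i ≠ j → ∃ π : Equiv.Perm (Fin 3), π 0 = i ∧ π 1 = j) i j hij
    obtain ⟨u, hu, hue, huc, hfin⟩ := conj π
    obtain ⟨A, hA, hAp⟩ := exists_blk_of_commute h2 hodd hu hue (fun k => hone _) huc
    refine fin (pm ((hstab π).case_pair (by simp [hπ0, hπ1, hd']) (hone _) (hone _)) ?_ hfin)
    exact Units.ext (by rw [Units.val_pow_eq_pow_val, hA, blkM_pow, unip_three hp3 hAp, blkM_one,
      Units.val_one])
  push Not at hrep
  obtain ⟨u, hu, hue, huc, hfin⟩ := conj 1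
  obtain ⟨A, hA, hAp⟩ := exists_blk_of_commute h2 hodd hu hue (fun k => hone _) huc
  have hu1 : u ^ 1 = 1 := by
    rw [pow_one]
    exact Units.ext (by
      rw [hA, eq_one_of_commute_distinct (fun i j h => hrep i j h) (hA ▸ huc) hAp, blkM_one,
        Units.val_one])
  refine Or.inr (Or.inr ?_)
  refine ((hstab 1).case_distinct (fun i => hone _) (fun i j h => hrep i j h)).imp (fun h => ?_)
    fun h => h.imp (fun h => ?_) fun h => Or.inl ?_ <;>
  simpa using hfin _ 1 h hu1

end Cfsg.Agent.G2Spec
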