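import Cfsg.Agent.G2Spec.Tables
import Cfsg.Agent.Chev.Rules
import Cfsg.Agent.S1055
import Cfsg.Agent.S1077
import Cfsg.Agent.S1078
import Cfsg.Prelude.Def_G2

/-!
# Endomorphisms of the octonions as matrices
-/

set_option autoImplicit false

namespace Cfsg.Agent.G2Spec

open Cfsg.Lie Cfsg.Agent.Chev.Classical Matrix

variable {R : Type*} [CommRing R]

/-- The structure matrix of a coordinate of the product. -/
def tM (R : Type*) [CommRing R] (k : Fin 8) : Matrix (Fin 8) (Fin 8) R :=
  meval 0 0 (prodTab.getD k.val [])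

theorem zornMul_eq (x y : Fin 8 → R) (k : Fin 8) :
    zornMul x y k = dotProduct x (tM R k *ᵥ y) := by
  fin_cases k <;>
    simp [zornMul, zA, zB, dot3, cross3, tM, prodTab, Mono.val, Matrix.add_mulVec,
      Matrix.single_mulVec, dotProduct_add, dotProduct, Fin.sum_univ_eight, Function.update_apply] <;>
    ring

/-- An endomorphism of the algebra, as a matrix. -/
def IsEndo (M : Matrix (Fin 8) (Fin 8) R) : Prop :=
  ∀ x y, M *ᵥ zornMul x y = zornMul (M *ᵥ x) (M *ᵥ y)

/-- The same, as equations between matrices. -/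
def IsEndo' (M : Matrix (Fin 8) (Fin 8) R) : Prop :=
  ∀ k, Mᵀ * tM R k * M = ∑ l, M k l • tM R l

theorem dot_conj (M A : Matrix (Fin 8) (Fin 8) R) (x y : Fin 8 → R) :
    dotProduct x ((Mᵀ * A * M) *ᵥ y) = dotProduct (M *ᵥ x) (A *ᵥ (M *ᵥ y)) := by
  rw [← Matrix.mulVec_mulVec, ← Matrix.mulVec_mulVec, Matrix.dotProduct_mulVec,
    Matrix.vecMul_transpose]

theorem IsEndo'.isEndo {M : Matrix (Fin 8) (Fin 8) R} (h : IsEndo' M) : IsEndo M := by
  intro x y
  funext k
  rw [zornMul_eq, ← dot_conj, h k, Matrix.sum_mulVec, dotProduct_sum]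
  simp only [Matrix.mulVec, dotProduct, zornMul_eq, Matrix.smul_apply, smul_eq_mul, Finset.mul_sum]
  refine Finset.sum_congr rfl fun l _ => Finset.sum_congr rfl fun a _ =>
    Finset.sum_congr rfl fun b _ => ?_
  ring

theorem IsEndo.isEndo' {M : Matrix (Fin 8) (Fin 8) R} (h : IsEndo M) : IsEndo' M := by
  intro k
  ext a b
  have e := congrFun (h (Pi.single a 1) (Pi.single b 1)) k
  rw [zornMul_eq, ← dot_conj] at e
  simp only [Matrix.mulVec, dotProduct, zornMul_eq, Pi.single_apply, mul_ite, mul_one, mul_zero,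
    ite_mul, one_mul, zero_mul, Finset.sum_ite_eq', Finset.mem_univ, if_true] at e
  rw [← e, Matrix.sum_apply]
  rfl

theorem IsEndo.mul {M N : Matrix (Fin 8) (Fin 8) R} (hM : IsEndo M) (hN : IsEndo N) :
    IsEndo (M * N) := fun x y => by
  simp only [← Matrix.mulVec_mulVec, hN x y]; exact hM _ _

theorem IsEndo.one : IsEndo (1 : Matrix (Fin 8) (Fin 8) R) := fun x y => by simp

theorem tM_map {S : Type*} [CommRing S] (f : R →+* S) (k : Fin 8) :
    (tM R k).map f = tM S k := by
  rw [tM, tM]
  induction prodTab.getD k.val [] with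
  | nil => simp
  | cons m L ih =>
    rw [meval_cons, meval_cons, Matrix.map_add f (map_add f), ih]
    congr 1
    rw [Mono.val, Mono.val, Matrix.map_single, map_mul, map_mul, map_intCast, map_pow, map_pow, map_zero]

theorem IsEndo.map {M : Matrix (Fin 8) (Fin 8) R} (h : IsEndo M) {S : Type*} [CommRing S]
    (f : R →+* S) : IsEndo (M.map f) := by
  refine IsEndo'.isEndo fun k => ?_
  have e := congrArg (fun A => f.mapMatrix A) (h.isEndo' k)
  simp only [map_mul, map_sum, RingHom.mapMatrix_apply, Matrix.transpose_map, tM_map] at e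
  rw [e]
  refine Finset.sum_congr rfl fun l _ => ?_
  ext a b
  simp [← tM_map f, Matrix.map_apply]

/-- The root element. -/
def rM (r : ℕ) (t : R) : Matrix (Fin 8) (Fin 8) R := rootMat repO r t

theorem addOK_repO : addOK chevG2 repO = true := by
  have h := repO_ok
  simp only [repOK, Bool.and_eq_true] at h
  exact h.1.1.1

theorem rM_eq (r : ℕ) (hr : r < 12) (t : R) : 1 + meval t 0 (rootT repO r) = rM r t := by
  rw [rootT, meval_rootAt repO r (fun m hm => (row_exp addOK_repO hr m hm).2)]
  simp [rM]

theorem rM_endo (r : ℕ) (hr : r < 12) (t : R) : IsEndo (rM r t) := by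
  refine IsEndo'.isEndo fun k => ?_
  have h := prodOK_true
  simp only [prodOK, List.all_eq_true, List.mem_range] at h
  have e := meval_eq_of_check t (0 : R) (h r hr k (List.mem_finRange k))
  have h0 : ∀ l : Fin 8, meval t 0 (prodTab.getD l.val []) = tM R l := fun l => by
    have hall : ∀ l : Fin 8, ∀ m ∈ prodTab.getD l.val [], m.i = 0 ∧ m.j = 0 := by decide
    refine congrArg List.sum (List.map_congr_left fun m hm => ?_)
    simp [Mono.val, (hall l m hm).1, (hall l m hm).2]
  set L := mone 8 ++ rootT repO r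
  have hL : meval t 0 L = rM r t := by rw [meval_append, meval_mone, rM_eq r hr]
  rw [meval_mmul, meval_mmul, meval_mtr, hL, h0] at e
  rw [e, ← hL]
  clear e hL
  induction L with
  | nil => simp
  | cons m L ih =>
    rw [List.flatMap_cons, meval_append, ih, meval_cons]
    simp only [Matrix.add_apply, add_smul, Finset.sum_add_distrib]
    congr 1
    by_cases hk : m.a = k
    · rw [if_pos hk, Finset.sum_eq_single m.b (fun l _ hl => by
        simp [Mono.val, Matrix.single_apply, hk, Ne.symm hl]) (by simp), ← h0 m.b]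
      rw [show (m.val t (0 : R)) k m.b = (m.c : R) * t ^ m.i * 0 ^ m.j by simp [Mono.val, hk]]
      have hQ : ∀ q ∈ prodTab.getD m.b.val [], q.i = 0 ∧ q.j = 0 := by
        have hall : ∀ l : Fin 8, ∀ q ∈ prodTab.getD l.val [], q.i = 0 ∧ q.j = 0 := by decide
        exact hall m.b
      revert hQ
      generalize prodTab.getD m.b.val [] = Lq
      intro hQ
      induction Lq with
      | nil => simp
      | cons q Q ihQ =>
        rw [List.map_cons, meval_cons, meval_cons, ihQ fun x hx => hQ x (List.mem_cons_of_mem _ hx), smul_add]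
        congr 1
        simp only [Mono.val]
        rw [Matrix.smul_single, smul_eq_mul]
        refine congrArg (Matrix.single q.a q.b) ?_
        obtain ⟨hqi, hqj⟩ : q.i = 0 ∧ q.j = 0 := hQ q List.mem_cons_self
        simp [hqi, hqj]
        ring
    · simp [Mono.val, Matrix.single_apply, hk]

end Cfsg.Agent.G2Spec
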